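import Cfsg.Agent.Lib.ProductSet
import Cfsg.Agent.LieClassical.SUBasic

/-!
# S3540, `U4(2)` in dimension 4: the monomial frame of `SU_4(2)` (helper84)

`Fr S` : elements `r i` (`i : Fin 4`) of order 3 (`diag (.., 1, ..)` with `ω` elsewhere), elements `n σ` permuting them,
the element `c` of order 3 inducing the 3-cycle `τ`, and `m` conjugating `r 1 * (r 2)⁻¹` to `c`.
-/

set_option autoImplicit false
set_option linter.unusedSectionVars false

namespace Cfsg.Agent.H84.HT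

open Cfsg Cfsg.Agent.LieClassical.SUBasic Matrix

/-- the 3-cycle `0 → 1 → 2 → 0` -/
def τ : Equiv.Perm (Fin 4) := Equiv.swap 0 1 * Equiv.swap 1 2

theorem τ_zero : τ 0 = 1 := by decide
theorem τ_one : τ 1 = 2 := by decide
theorem τ_two : τ 2 = 0 := by decide
theorem τ_three : τ 3 = 3 := by decide

/-- the monomial frame -/
structure Fr (S : Type*) [Group S] where
  r : Fin 4 → S
  n : Equiv.Perm (Fin 4) → S
  c : S
  m : S
  r_pow : ∀ i, r i ^ 3 = 1
  comm : ∀ i j, r i * r j = r j * r i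
  prod : r 0 * r 1 * r 2 * r 3 = 1
  conj : ∀ σ i, n σ * r i * (n σ)⁻¹ = r (σ i)
  c_pow : c ^ 3 = 1
  c_conj : ∀ i, c * r i * c⁻¹ = r (τ i)
  m_conj : m * (r 1 * (r 2)⁻¹) * m⁻¹ = c
  ne : r 0 ≠ 1

/-- the image of a frame -/
def Fr.map {S T : Type*} [Group S] [Group T] (R : Fr S) (f : S →* T) (h : f (R.r 0) ≠ 1) : Fr T where
  r i := f (R.r i)
  n σ := f (R.n σ)
  c := f R.c
  m := f R.m
  r_pow i := by rw [← map_pow, R.r_pow, map_one]
  comm i j := by rw [← map_mul, R.comm, map_mul]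
  prod := by rw [← map_mul, ← map_mul, ← map_mul, R.prod, map_one]
  conj σ i := by rw [← map_inv, ← map_mul, ← map_mul, R.conj]
  c_pow := by rw [← map_pow, R.c_pow, map_one]
  c_conj i := by rw [← map_inv, ← map_mul, ← map_mul, R.c_conj]
  m_conj := by rw [← map_inv, ← map_mul, ← map_inv, ← map_mul, ← map_mul, R.m_conj]
  ne := h

/-- lifting a frame along a central extension with kernel of exponent 4 -/
theorem Fr.lift {L S : Type*} [Group L] [Group S] (R : Fr S) (π : L →* S) (hπ : Function.Surjective π)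
    (hc : ∀ z, π z = 1 → ∀ g, z * g = g * z) (h4 : ∀ z, π z = 1 → z ^ 4 = 1) :
    ∃ R' : Fr L, ∀ i, π (R'.r i) = R.r i := by
  -- uniqueness of lifts
  have huniq : ∀ u u' : L, u ^ 3 = 1 → u' ^ 3 = 1 → π u = π u' → u = u' := by
    intro u u' hu hu' h
    have h1 : π (u'⁻¹ * u) = 1 := by rw [map_mul, map_inv, h, inv_mul_cancel]
    have h2 := h4 _ h1
    have h3 : (u'⁻¹ * u) ^ 3 = 1 := by
      have hcm : Commute u' (u'⁻¹ * u) := (hc _ h1 u').symm
      have h5 : u = u' * (u'⁻¹ * u) := by group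
      have h6 : (u' * (u'⁻¹ * u)) ^ 3 = 1 := by rw [← h5]; exact hu
      rwa [hcm.mul_pow, hu', one_mul] at h6
    have h4' : u'⁻¹ * u = 1 := by
      have : (u'⁻¹ * u) ^ 4 = (u'⁻¹ * u) ^ 3 * (u'⁻¹ * u) := pow_succ _ 3
      rw [h2, h3, one_mul] at this
      exact this.symm
    exact (inv_mul_eq_one.1 h4').symm
  -- existence of lifts
  have hlift : ∀ x : S, x ^ 3 = 1 → ∃ u : L, u ^ 3 = 1 ∧ π u = x := by
    intro x hx
    obtain ⟨l, rfl⟩ := hπ x
    refine ⟨l ^ 4, ?_, ?_⟩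
    · rw [← pow_mul, mul_comm, pow_mul]
      exact h4 _ (by rw [map_pow, hx])
    · rw [map_pow, pow_succ, hx, one_mul]
  choose r hr1 hr2 using fun i => hlift (R.r i) (R.r_pow i)
  obtain ⟨c, hc1, hc2⟩ := hlift R.c R.c_pow
  choose n hn using fun σ => hπ (R.n σ)
  obtain ⟨m, hm⟩ := hπ R.m
  have hconj : ∀ (g u : L), u ^ 3 = 1 → (g * u * g⁻¹) ^ 3 = 1 := by
    intro g u hu
    rw [conj_pow, hu, mul_one, mul_inv_cancel]
  have hcomm : ∀ i j, r i * r j = r j * r i := by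
    intro i j
    have h1 := huniq (r i * r j * (r i)⁻¹) (r j) (hconj _ _ (hr1 j)) (hr1 j) (by
      rw [map_mul, map_mul, map_inv, hr2, hr2, R.comm, mul_inv_cancel_right])
    calc r i * r j = r i * r j * (r i)⁻¹ * r i := by group
      _ = r j * r i := by rw [h1]
  have hcr : ∀ i j, Commute (r i) (r j) := hcomm
  refine ⟨⟨r, n, c, m, hr1, hcomm, ?_, ?_, hc1, ?_, ?_, ?_⟩, hr2⟩
  · refine huniq _ _ ?_ (one_pow 3) (by rw [map_mul, map_mul, map_mul, hr2, hr2, hr2, hr2, R.prod, map_one])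
    rw [(((hcr 0 3).mul_left (hcr 1 3)).mul_left (hcr 2 3)).mul_pow, ((hcr 0 2).mul_left (hcr 1 2)).mul_pow,
      (hcr 0 1).mul_pow, hr1, hr1, hr1, hr1, one_mul, one_mul, one_mul]
  · intro σ i
    exact huniq _ _ (hconj _ _ (hr1 i)) (hr1 _) (by rw [map_mul, map_mul, map_inv, hn, hr2, R.conj, hr2])
  · intro i
    exact huniq _ _ (hconj _ _ (hr1 i)) (hr1 _) (by rw [map_mul, map_mul, map_inv, hc2, hr2, R.c_conj, hr2])
  · refine huniq _ _ (hconj _ _ ?_) hc1 (by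
      rw [map_mul, map_mul, map_inv, map_mul, map_inv, hm, hr2, hr2, R.m_conj, hc2])
    rw [(hcr 1 2).inv_right.mul_pow, hr1, inv_pow, hr1, inv_one, one_mul]
  · intro h
    have h1 := hr2 0
    rw [h, map_one] at h1
    exact R.ne h1.symm

/-! ### the frame of `SU_4(2)` -/

section SU

variable {F : Type*} [Field F] [CharP F 2]

theorem mem_SU_of (M : Matrix.SpecialLinearGroup (Fin 4) F)
    (h : ∀ j k, ∑ i, (M : Matrix (Fin 4) (Fin 4) F) i j * ((M : Matrix (Fin 4) (Fin 4) F) i k) ^ 2 =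
      if j = k then 1 else 0) : M ∈ Cfsg.SU 4 F 2 := by
  rw [mem_SU_iff]
  intro u v
  rw [hermForm_apply, hermForm_apply]
  have e1 : ∀ i, ((M : Matrix (Fin 4) (Fin 4) F) *ᵥ u) i * (((M : Matrix (Fin 4) (Fin 4) F) *ᵥ v) i) ^ 2 =
      ∑ j, ∑ k, ((M : Matrix (Fin 4) (Fin 4) F) i j * ((M : Matrix (Fin 4) (Fin 4) F) i k) ^ 2) * (u j * v k ^ 2) := by
    intro i
    rw [Matrix.mulVec, Matrix.mulVec, dotProduct, dotProduct, sum_pow_char, Finset.sum_mul_sum]
    refine Finset.sum_congr rfl fun j _ => Finset.sum_congr rfl fun k _ => ?_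
    ring
  simp_rw [e1]
  rw [Finset.sum_comm]
  have e2 : ∀ j, ∑ i, ∑ k, ((M : Matrix (Fin 4) (Fin 4) F) i j * ((M : Matrix (Fin 4) (Fin 4) F) i k) ^ 2) *
      (u j * v k ^ 2) = u j * v j ^ 2 := by
    intro j
    rw [Finset.sum_comm]
    simp_rw [← Finset.sum_mul, h]
    simp
  simp_rw [e2]

/-- the permutation matrices -/
def nMat (F : Type*) [Field F] (σ : Equiv.Perm (Fin 4)) : Matrix (Fin 4) (Fin 4) F := fun i j => if i = σ j then 1 else 0

theorem nMat_eq (σ : Equiv.Perm (Fin 4)) : nMat F σ = (σ⁻¹ : Equiv.Perm (Fin 4)).permMatrix F := by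
  ext i j
  rw [Equiv.Perm.permMatrix, PEquiv.toMatrix_apply]
  unfold nMat
  congr 1
  simp only [Equiv.toPEquiv, PEquiv.coe_mk, Option.mem_def, eq_iff_iff]
  constructor
  · rintro rfl
    show some (σ.symm (σ j)) = some j
    rw [Equiv.symm_apply_apply]
  · intro h
    have h' : some (σ.symm i) = some j := h
    rw [← Option.some.inj h', Equiv.apply_symm_apply]

theorem det_nMat (σ : Equiv.Perm (Fin 4)) : (nMat F σ).det = 1 := by
  rw [nMat_eq, Matrix.det_permutation]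
  rcases Int.units_eq_one_or (Equiv.Perm.sign σ⁻¹) with h | h
  · rw [h]; simp
  · rw [h]
    simp [CharTwo.neg_eq]

/-- `n σ` -/
def nS (F : Type*) [Field F] [CharP F 2] (σ : Equiv.Perm (Fin 4)) : Cfsg.SU 4 F 2 :=
  ⟨⟨nMat F σ, det_nMat σ⟩, mem_SU_of _ fun j k => by
    show ∑ i, nMat F σ i j * (nMat F σ i k) ^ 2 = _
    unfold nMat
    simp [eq_comm]⟩

/-- the matrix `m` -/
def mMat (w : F) : Matrix (Fin 4) (Fin 4) F := !![1, 1, 1, 0; 1, w, w ^ 2, 0; 1, w ^ 2, w, 0; 0, 0, 0, 1]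

theorem det_mMat {w : F} (hw : w ^ 2 + w + 1 = 0) : (mMat w).det = 1 := by
  have h2 : (2 : F) = 0 := CharTwo.two_eq_zero
  rw [mMat, Matrix.det_succ_row_zero]
  simp [Fin.sum_univ_succ, Matrix.det_fin_three, Fin.succAbove, Matrix.submatrix]
  grind

/-- the element `m` -/
def mS {w : F} (hw : w ^ 2 + w + 1 = 0) : Cfsg.SU 4 F 2 :=
  ⟨⟨mMat w, det_mMat hw⟩, mem_SU_of _ fun j k => by
    have h2 : (2 : F) = 0 := CharTwo.two_eq_zero
    show ∑ i, mMat w i j * (mMat w i k) ^ 2 = _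
    fin_cases j <;> fin_cases k <;> simp [mMat, Fin.sum_univ_succ] <;> grind⟩

/-- `r i` -/
def rS {w : F} (hw : w ^ 3 = 1) (i : Fin 4) : Cfsg.SU 4 F 2 :=
  suDiag 2 (fun j => if j = i then 1 else w) (by
    rw [Fin.prod_univ_four]
    fin_cases i <;> simp <;> linear_combination hw) (fun j => by
    show (if j = i then (1 : F) else w) ^ 3 = 1
    split_ifs
    · exact one_pow 3
    · exact hw)

theorem coe_rS {w : F} (hw : w ^ 3 = 1) (i : Fin 4) :
    (((rS hw i : Cfsg.SU 4 F 2) : Matrix.SpecialLinearGroup (Fin 4) F) : Matrix (Fin 4) (Fin 4) F) =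
      Matrix.diagonal (fun j => if j = i then 1 else w) := rfl

theorem SU_ext {a b : Cfsg.SU 4 F 2} (h : ((a : Matrix.SpecialLinearGroup (Fin 4) F) : Matrix (Fin 4) (Fin 4) F) =
    ((b : Matrix.SpecialLinearGroup (Fin 4) F) : Matrix (Fin 4) (Fin 4) F)) : a = b :=
  Subtype.ext (Subtype.ext h)

theorem coe_mul' (a b : Cfsg.SU 4 F 2) : (((a * b : Cfsg.SU 4 F 2) : Matrix.SpecialLinearGroup (Fin 4) F) :
    Matrix (Fin 4) (Fin 4) F) = ((a : Matrix.SpecialLinearGroup (Fin 4) F) : Matrix (Fin 4) (Fin 4) F) *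
    ((b : Matrix.SpecialLinearGroup (Fin 4) F) : Matrix (Fin 4) (Fin 4) F) := rfl

theorem nS_conj {w : F} (hw : w ^ 3 = 1) (σ : Equiv.Perm (Fin 4)) (i : Fin 4) :
    nS F σ * rS hw i * (nS F σ)⁻¹ = rS hw (σ i) := by
  rw [mul_inv_eq_iff_eq_mul]
  apply SU_ext
  rw [coe_mul', coe_mul', coe_rS, coe_rS]
  show nMat F σ * _ = _ * nMat F σ
  ext a b
  rw [Matrix.mul_diagonal, Matrix.diagonal_mul]
  unfold nMat
  by_cases h : a = σ b
  · subst h
    simp [σ.injective.eq_iff]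
  · simp [h]

theorem nS_τ_pow : (nS F τ) ^ 3 = 1 := by
  rw [pow_succ, pow_two]
  apply SU_ext
  rw [coe_mul', coe_mul']
  show nMat F τ * nMat F τ * nMat F τ = 1
  have h : ∀ σ ρ : Equiv.Perm (Fin 4), nMat F σ * nMat F ρ = nMat F (σ * ρ) := by
    intro σ ρ
    ext a b
    rw [Matrix.mul_apply]
    unfold nMat
    simp only [mul_ite, mul_one, mul_zero, Finset.sum_ite_eq', Finset.mem_univ, if_true, Equiv.Perm.mul_apply]
    by_cases hab : a = σ (ρ b) <;> simp [hab]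
  rw [h, h]
  have h1 : τ * τ * τ = 1 := by decide
  rw [h1]
  ext a b
  unfold nMat
  rw [Matrix.one_apply]
  rfl

theorem mS_conj {w : F} (hw : w ^ 2 + w + 1 = 0) (hw3 : w ^ 3 = 1) :
    mS hw * (rS hw3 1 * (rS hw3 2)⁻¹) * (mS hw)⁻¹ = nS F τ := by
  have h2 : (2 : F) = 0 := CharTwo.two_eq_zero
  have h1 : mS hw * rS hw3 1 = nS F τ * mS hw * rS hw3 2 := by
    apply SU_ext
    rw [coe_mul', coe_mul', coe_mul', coe_rS, coe_rS]
    show mMat w * _ = nMat F τ * mMat w * _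
    ext a b
    rw [Matrix.mul_diagonal, Matrix.mul_diagonal, Matrix.mul_apply]
    unfold nMat
    fin_cases a <;> fin_cases b <;> simp [mMat, Fin.sum_univ_four, τ_zero, τ_one, τ_two, τ_three] <;> grind
  rw [mul_inv_eq_iff_eq_mul, ← mul_assoc, h1, mul_inv_cancel_right]

/-- **the frame of `SU_4(2)`** -/
def frSU {w : F} (hw : w ^ 2 + w + 1 = 0) (hw3 : w ^ 3 = 1) (hw1 : w ≠ 1) : Fr (Cfsg.SU 4 F 2) where
  r := rS hw3
  n := nS F
  c := nS F τ
  m := mS hw
  r_pow i := by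
    rw [pow_succ, pow_two]
    apply SU_ext
    rw [coe_mul', coe_mul', coe_rS, Matrix.diagonal_mul_diagonal, Matrix.diagonal_mul_diagonal]
    show _ = (1 : Matrix (Fin 4) (Fin 4) F)
    rw [← Matrix.diagonal_one]
    congr 1
    funext j
    split_ifs
    · simp
    · linear_combination hw3
  comm i j := by
    apply SU_ext
    rw [coe_mul', coe_mul', coe_rS, coe_rS, Matrix.diagonal_mul_diagonal, Matrix.diagonal_mul_diagonal]
    congr 1
    funext k
    exact mul_comm _ _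
  prod := by
    apply SU_ext
    rw [coe_mul', coe_mul', coe_mul', coe_rS, coe_rS, coe_rS, coe_rS, Matrix.diagonal_mul_diagonal,
      Matrix.diagonal_mul_diagonal, Matrix.diagonal_mul_diagonal]
    show _ = (1 : Matrix (Fin 4) (Fin 4) F)
    rw [← Matrix.diagonal_one]
    congr 1
    funext j
    fin_cases j <;> simp <;> linear_combination hw3
  conj := nS_conj hw3
  c_pow := nS_τ_pow
  c_conj := nS_conj hw3 τ
  m_conj := mS_conj hw hw3
  ne h := hw1 (by
    have h1 := congrArg (fun g : Cfsg.SU 4 F 2 =>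
      ((g : Matrix.SpecialLinearGroup (Fin 4) F) : Matrix (Fin 4) (Fin 4) F) 1 1) h
    have h2 : (Matrix.diagonal (fun j : Fin 4 => if j = 0 then 1 else w)) 1 1 = (1 : Matrix (Fin 4) (Fin 4) F) 1 1 := h1
    simpa using h2)

end SU

/-- **the frame of `PSU_4(2)`** -/
theorem exists_frPSU {F : Type*} [Field F] [Fintype F] (hF : Fintype.card F = 2 ^ 2) : Nonempty (Fr (Cfsg.PSU 4 F 2)) := by
  have hp : CharP F 2 := by
    obtain ⟨p, hp⟩ := CharP.exists F
    have hpp : p.Prime := CharP.char_is_prime F p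
    obtain ⟨n, hn⟩ := FiniteField.card F p
    have h1 : p ∣ 2 ^ 2 := by
      rw [← hF, hn.2]
      exact dvd_pow_self p n.pos.ne'
    have h2 : p = 2 := (Nat.prime_dvd_prime_iff_eq hpp Nat.prime_two).1 (hpp.dvd_of_dvd_pow h1)
    exact h2 ▸ hp
  obtain ⟨w, hw, hw1⟩ := exists_norm_one hF
  have hw' : w ^ 2 + w + 1 = 0 := by
    have h1 : (w - 1) * (w ^ 2 + w + 1) = 0 := by
      have : w ^ 3 = 1 := hw
      linear_combination this
    exact (mul_eq_zero.1 h1).resolve_left (sub_ne_zero.2 hw1)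
  let R := frSU hw' hw hw1
  refine ⟨R.map (QuotientGroup.mk' (Subgroup.center (Cfsg.SU 4 F 2))) fun h => ?_⟩
  have h1 : R.r 0 ∈ Subgroup.center (Cfsg.SU 4 F 2) := (QuotientGroup.eq_one_iff _).1 h
  have h2 := Subgroup.mem_center_iff.1 h1 (R.n (Equiv.swap 0 1))
  have h3 := R.conj (Equiv.swap 0 1) 0
  rw [h2, mul_inv_cancel_right, Equiv.swap_apply_left] at h3
  apply hw1
  have h4 := congrArg (fun g : Cfsg.SU 4 F 2 =>
      ((g : Matrix.SpecialLinearGroup (Fin 4) F) : Matrix (Fin 4) (Fin 4) F) 1 1) h3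
  have h5 : (Matrix.diagonal (fun j : Fin 4 => if j = 0 then 1 else w)) 1 1 =
    (Matrix.diagonal (fun j : Fin 4 => if j = 1 then 1 else w)) 1 1 := h4
  simpa using h5

end Cfsg.Agent.H84.HT

/-!
# S3540, `U4(2)` in dimension 4: the weights of the frame (helper84)

`exists_basis` : in a representation of degree 4 (over a field with cube roots of unity, characteristic not 3) there is a
basis `b` and a primitive cube root of unity `ζ` with `r i (b j) = ζ b j` for `i ≠ j` and `r i (b i) = b i`.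
-/

set_option autoImplicit false
set_option linter.unusedSectionVars false

namespace Cfsg.Agent.H84.HT

open Module

section proj

variable {K V : Type*} [Field K] [AddCommGroup V] [Module K V]

/-- (three times) the projection to the `s`-eigenspace of `T`, `T ^ 3 = 1`, `s ^ 3 = 1` -/
def pj (T : End K V) (s : K) (v : V) : V := v + s ^ 2 • T v + s • T (T v)

theorem pj_eigen {T : End K V} (hT : T ^ 3 = 1) {s : K} (hs : s ^ 3 = 1) (v : V) : T (pj T s v) = s • pj T s v := by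
  have h1 : T (T (T v)) = v := by
    have : (T ^ 3) v = v := by rw [hT]; rfl
    exact this
  unfold pj
  simp only [map_add, map_smul, h1, smul_add, smul_smul]
  rw [show s * s ^ 2 = 1 by rw [← hs]; ring, show s * s = s ^ 2 by ring, one_smul]
  abel

theorem pj_comm {T S : End K V} (h : S * T = T * S) {s μ : K} {v : V} (hv : S v = μ • v) :
    S (pj T s v) = μ • pj T s v := by
  have h1 : ∀ w, S (T w) = T (S w) := fun w => congrArg (fun f : End K V => f w) h
  unfold pj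
  simp only [map_add, map_smul, h1, hv, smul_add]
  rw [smul_comm μ (s ^ 2), smul_comm μ s]

theorem pj_sum {T : End K V} {ω : K} (hω : ω ^ 2 + ω + 1 = 0) (v : V) :
    pj T 1 v + pj T ω v + pj T (ω ^ 2) v = (3 : K) • v := by
  have h3 : ω ^ 3 = 1 := by linear_combination (ω - 1) * hω
  have h4 : (ω ^ 2) ^ 2 = ω := by linear_combination ω * h3
  unfold pj
  rw [h4]
  have e : v + (1 : K) ^ 2 • T v + (1 : K) • T (T v) + (v + ω ^ 2 • T v + ω • T (T v)) +
      (v + ω • T v + ω ^ 2 • T (T v)) = (3 : K) • v + (ω ^ 2 + ω + 1) • T v + (ω ^ 2 + ω + 1) • T (T v) := by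
    module
  rw [e, hω, zero_smul, zero_smul, add_zero, add_zero]

theorem pow_val {ω : K} (hω : ω ^ 2 + ω + 1 = 0) (k : ZMod 3) : (ω ^ k.val) ^ 3 = 1 := by
  have h3 : ω ^ 3 = 1 := by linear_combination (ω - 1) * hω
  rw [← pow_mul, mul_comm, pow_mul, h3, one_pow]

theorem exists_pj {T : End K V} {ω : K} (hω : ω ^ 2 + ω + 1 = 0) (h3 : (3 : K) ≠ 0) {v : V} (hv : v ≠ 0) :
    ∃ k : ZMod 3, pj T (ω ^ k.val) v ≠ 0 := by
  by_contra hcon
  push Not at hcon
  have h := pj_sum (T := T) hω v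
  have h0 : pj T 1 v = 0 := by simpa using hcon 0
  have h1 : pj T ω v = 0 := by
    have := hcon 1
    rwa [ZMod.val_one, pow_one] at this
  have h2 : pj T (ω ^ 2) v = 0 := hcon 2
  rw [h0, h1, h2, add_zero, add_zero] at h
  exact hv ((smul_eq_zero.1 h.symm).resolve_left h3)

theorem exists_pj_ne {T : End K V} {ω : K} (hω : ω ^ 2 + ω + 1 = 0) (h3 : (3 : K) ≠ 0)
    (hT1 : T ^ 3 = 1) (hT : T ≠ 1) : ∃ (k : ZMod 3) (v : V), k ≠ 0 ∧ pj T (ω ^ k.val) v ≠ 0 := by
  by_contra hcon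
  push Not at hcon
  apply hT
  ext v
  have h := pj_sum (T := T) hω v
  have h1 : pj T ω v = 0 := by
    have := hcon 1 v (by decide)
    rwa [ZMod.val_one, pow_one] at this
  have h2 : pj T (ω ^ 2) v = 0 := hcon 2 v (by decide)
  rw [h1, h2, add_zero, add_zero] at h
  have h4 := pj_eigen hT1 (one_pow 3) v
  rw [h, one_smul, map_smul] at h4
  exact smul_right_injective V h3 h4

end proj

/-! ### the combinatorics of the weights -/

/-- the weights with at most four images under the symmetric group -/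
theorem weights_dec : ∀ l : Fin 4 → ZMod 3, l 0 + l 1 + l 2 + l 3 = 0 → l 0 ≠ 0 →
    (Finset.univ.image (fun σ : Equiv.Perm (Fin 4) => l ∘ σ)).card ≤ 4 →
    ∃ (j : Fin 4) (s : ZMod 3), s ≠ 0 ∧ l = fun i => if i = j then 0 else s := by decide +kernel

variable {L : Type*} [Group L] (R : Fr L) {K V : Type*} [Field K] [AddCommGroup V] [Module K V]
  (ρ : L →* Module.End K V)

theorem rep_pow (i : Fin 4) : ρ (R.r i) ^ 3 = 1 := by rw [← map_pow, R.r_pow, map_one]

theorem rep_comm (i j : Fin 4) : ρ (R.r i) * ρ (R.r j) = ρ (R.r j) * ρ (R.r i) := by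
  rw [← map_mul, R.comm, map_mul]

/-- independence of the weight spaces -/
theorem indep : iSupIndep fun χ : Fin 4 → K => ⨅ i, (ρ (R.r i)).maxGenEigenspace (χ i) :=
  Module.End.independent_iInf_maxGenEigenspace_of_forall_mapsTo (fun i => ρ (R.r i))
    fun i j φ => Module.End.mapsTo_maxGenEigenspace_of_comm (rep_comm R ρ j i) φ

theorem mem_weight {χ : Fin 4 → K} {v : V} (h : ∀ i, ρ (R.r i) v = χ i • v) :
    v ∈ ⨅ i, (ρ (R.r i)).maxGenEigenspace (χ i) := by
  rw [Submodule.mem_iInf]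
  intro i
  exact (Module.End.genEigenspace _ _).monotone le_top (Module.End.mem_eigenspace_iff.2 (h i))

theorem linInd {ι : Type*} {χ : ι → Fin 4 → K} (hχ : Function.Injective χ) {v : ι → V} (hv : ∀ a, v a ≠ 0)
    (h : ∀ a i, ρ (R.r i) (v a) = χ a i • v a) : LinearIndependent K v :=
  ((indep R ρ).comp hχ).linearIndependent _ (fun a => mem_weight R ρ (h a)) hv

/-- a common eigenvector with a non-trivial weight -/
theorem exists_weight {ω : K} (hω : ω ^ 2 + ω + 1 = 0) (h3 : (3 : K) ≠ 0) (hne : ρ (R.r 0) ≠ 1) :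
    ∃ (u : V) (l : Fin 4 → ZMod 3), u ≠ 0 ∧ l 0 ≠ 0 ∧ ∀ i, ρ (R.r i) u = ω ^ (l i).val • u := by
  obtain ⟨k0, v, hk0, hv⟩ := exists_pj_ne hω h3 (rep_pow R ρ 0) hne
  set u0 := pj (ρ (R.r 0)) (ω ^ k0.val) v with hu0
  obtain ⟨k1, hk1⟩ := exists_pj (T := ρ (R.r 1)) hω h3 hv
  set u1 := pj (ρ (R.r 1)) (ω ^ k1.val) u0 with hu1
  obtain ⟨k2, hk2⟩ := exists_pj (T := ρ (R.r 2)) hω h3 hk1
  set u2 := pj (ρ (R.r 2)) (ω ^ k2.val) u1 with hu2
  obtain ⟨k3, hk3⟩ := exists_pj (T := ρ (R.r 3)) hω h3 hk2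
  refine ⟨pj (ρ (R.r 3)) (ω ^ k3.val) u2, ![k0, k1, k2, k3], hk3, hk0, ?_⟩
  have e00 := pj_eigen (rep_pow R ρ 0) (pow_val hω k0) v
  have e01 := pj_comm (rep_comm R ρ 0 1) (s := ω ^ k1.val) e00
  have e02 := pj_comm (rep_comm R ρ 0 2) (s := ω ^ k2.val) e01
  have e03 := pj_comm (rep_comm R ρ 0 3) (s := ω ^ k3.val) e02
  have e11 := pj_eigen (rep_pow R ρ 1) (pow_val hω k1) u0
  have e12 := pj_comm (rep_comm R ρ 1 2) (s := ω ^ k2.val) e11
  have e13 := pj_comm (rep_comm R ρ 1 3) (s := ω ^ k3.val) e12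
  have e22 := pj_eigen (rep_pow R ρ 2) (pow_val hω k2) u1
  have e23 := pj_comm (rep_comm R ρ 2 3) (s := ω ^ k3.val) e22
  have e33 := pj_eigen (rep_pow R ρ 3) (pow_val hω k3) u2
  intro i
  fin_cases i
  · exact e03
  · exact e13
  · exact e23
  · exact e33

theorem ρ_inj (g : L) {v : V} (hv : v ≠ 0) : ρ g v ≠ 0 := by
  intro h
  apply hv
  have h1 : (ρ g⁻¹ * ρ g) v = v := by rw [← map_mul, inv_mul_cancel, map_one]; rfl
  rw [← h1, Module.End.mul_apply, h, map_zero]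

/-- the action of the permutations on the weights -/
theorem weight_perm {χ : Fin 4 → K} {u : V} (h : ∀ i, ρ (R.r i) u = χ i • u) (σ : Equiv.Perm (Fin 4)) (i : Fin 4) :
    ρ (R.r i) (ρ (R.n σ) u) = χ (σ⁻¹ i) • ρ (R.n σ) u := by
  have h1 : R.r i * R.n σ = R.n σ * R.r (σ⁻¹ i) := by
    have h2 := R.conj σ (σ⁻¹ i)
    have h4 : σ (σ⁻¹ i) = i := σ.apply_symm_apply i
    rw [h4] at h2
    rw [← h2, inv_mul_cancel_right]
  rw [← Module.End.mul_apply, ← map_mul, h1, map_mul, Module.End.mul_apply, h, map_smul]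

theorem pow_val_inj {ω : K} (hω : ω ^ 2 + ω + 1 = 0) (h3 : (3 : K) ≠ 0) {a b : ZMod 3} (h : ω ^ a.val = ω ^ b.val) :
    a = b := by
  have hω1 : ω ≠ 1 := by
    rintro rfl
    apply h3
    linear_combination hω
  have hω2 : ω ^ 2 ≠ 1 := by
    intro h1
    apply hω1
    have h2 : ω ^ 3 = 1 := by linear_combination (ω - 1) * hω
    calc ω = ω ^ 2 * ω := by rw [h1, one_mul]
      _ = ω ^ 3 := by ring
      _ = 1 := h2
  have hω3 : ω ^ 2 ≠ ω := by
    intro h1
    apply hω1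
    have h0 : ω ≠ 0 := by
      rintro rfl
      norm_num at hω
    have h4 : ω * (ω - 1) = 0 := by linear_combination h1
    exact sub_eq_zero.1 ((mul_eq_zero.1 h4).resolve_left h0)
  have v0 : (0 : ZMod 3).val = 0 := rfl
  have v1 : (1 : ZMod 3).val = 1 := rfl
  have v2 : (2 : ZMod 3).val = 2 := rfl
  have key : ∀ a : ZMod 3, a = 0 ∨ a = 1 ∨ a = 2 := by decide
  rcases key a with rfl | rfl | rfl <;> rcases key b with rfl | rfl | rfl <;>
    simp only [v0, v1, v2, pow_zero, pow_one] at h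
  · rfl
  · exact absurd h.symm hω1
  · exact absurd h.symm hω2
  · exact absurd h hω1
  · rfl
  · exact absurd h.symm hω3
  · exact absurd h hω2
  · exact absurd h hω3
  · rfl

/-- **the basis of weight vectors** -/
theorem exists_basis [FiniteDimensional K V] (hV : finrank K V = 4) {ω : K} (hω : ω ^ 2 + ω + 1 = 0) (h3 : (3 : K) ≠ 0)
    (hne : ρ (R.r 0) ≠ 1) : ∃ (b : Basis (Fin 4) K V) (ζ : K), ζ ^ 2 + ζ + 1 = 0 ∧
      ∀ i j, ρ (R.r i) (b j) = (if i = j then (1 : K) else ζ) • b j := by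
  classical
  have hω3 : ω ^ 3 = 1 := by linear_combination (ω - 1) * hω
  obtain ⟨u, l, hu, hl0, hl⟩ := exists_weight R ρ hω h3 hne
  -- the sum of the weight
  have hsum : l 0 + l 1 + l 2 + l 3 = 0 := by
    have h1 : ρ (R.r 0) (ρ (R.r 1) (ρ (R.r 2) (ρ (R.r 3) u))) = u := by
      rw [← Module.End.mul_apply, ← Module.End.mul_apply, ← Module.End.mul_apply, ← map_mul, ← map_mul, ← map_mul,
        R.prod, map_one]
      rfl
    simp only [hl, map_smul, smul_smul] at h1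
    have h2 : (ω ^ (l 3).val * (ω ^ (l 2).val * (ω ^ (l 1).val * ω ^ (l 0).val)) - 1) • u = 0 := by
      rw [sub_smul, one_smul, sub_eq_zero]
      convert h1 using 2
      ring
    have h4 := (smul_eq_zero.1 h2).resolve_right hu
    have h5 : ω ^ ((l 3).val + ((l 2).val + ((l 1).val + (l 0).val))) = ω ^ (0 : ZMod 3).val := by
      rw [pow_add, pow_add, pow_add, sub_eq_zero.1 h4]
      simp
    have h6 : ω ^ ((((l 3).val + ((l 2).val + ((l 1).val + (l 0).val)) : ℕ) : ZMod 3)).val = ω ^ (0 : ZMod 3).val := by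
      rw [← h5, ZMod.val_natCast]
      conv_rhs => rw [← Nat.mod_add_div ((l 3).val + ((l 2).val + ((l 1).val + (l 0).val))) 3, pow_add, pow_mul, hω3,
        one_pow, mul_one]
    have h7 := pow_val_inj hω h3 h6
    push_cast at h7
    simp only [ZMod.natCast_val, ZMod.cast_id', id] at h7
    rw [← h7]
    ring
  -- the number of weights
  have hcard : (Finset.univ.image (fun σ : Equiv.Perm (Fin 4) => l ∘ σ)).card ≤ 4 := by
    set s := Finset.univ.image (fun σ : Equiv.Perm (Fin 4) => l ∘ σ) with hs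
    have hex : ∀ m : s, ∃ v : V, v ≠ 0 ∧ ∀ i, ρ (R.r i) v = ω ^ ((m : Fin 4 → ZMod 3) i).val • v := by
      rintro ⟨m, hm⟩
      obtain ⟨σ, -, hσ⟩ := Finset.mem_image.1 hm
      refine ⟨ρ (R.n σ⁻¹) u, ρ_inj ρ _ hu, fun i => ?_⟩
      rw [weight_perm R ρ hl, inv_inv]
      show _ = ω ^ (m i).val • _
      rw [← hσ]
      rfl
    choose v hv1 hv2 using hex
    have hli : LinearIndependent K v := by
      refine linInd R ρ (χ := fun (m : s) i => ω ^ ((m : Fin 4 → ZMod 3) i).val) ?_ hv1 hv2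
      intro m m' hmm
      apply Subtype.ext
      funext i
      exact pow_val_inj hω h3 (congrFun hmm i)
    have := hli.fintype_card_le_finrank
    rwa [hV, Fintype.card_coe] at this
  obtain ⟨j0, s, hs, rfl⟩ := weights_dec l hsum hl0 hcard
  have hζ : (ω ^ s.val) ^ 2 + ω ^ s.val + 1 = 0 := by
    have key : ∀ a : ZMod 3, a = 0 ∨ a = 1 ∨ a = 2 := by decide
    rcases key s with rfl | rfl | rfl
    · exact absurd rfl hs
    · show (ω ^ 1) ^ 2 + ω ^ 1 + 1 = 0
      linear_combination hω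
    · show (ω ^ 2) ^ 2 + ω ^ 2 + 1 = 0
      linear_combination (ω ^ 2 - ω + 1) * hω
  have hζ1 : ω ^ s.val ≠ 1 := by
    intro h
    rw [h] at hζ
    apply h3
    linear_combination hζ
  have hb : ∀ j i, ρ (R.r i) (ρ (R.n (Equiv.swap j0 j)) u) =
      (if i = j then (1 : K) else ω ^ s.val) • ρ (R.n (Equiv.swap j0 j)) u := by
    intro j i
    rw [weight_perm R ρ hl]
    congr 1
    have h1 : (Equiv.swap j0 j)⁻¹ i = j0 ↔ i = j := by
      rw [Equiv.swap_inv, Equiv.swap_apply_eq_iff, Equiv.swap_apply_left]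
    show ω ^ (if (Equiv.swap j0 j)⁻¹ i = j0 then (0 : ZMod 3) else s).val = _
    by_cases hij : i = j
    · rw [if_pos hij, if_pos (h1.2 hij)]
      exact pow_zero ω
    · rw [if_neg hij, if_neg (fun h => hij (h1.1 h))]
  have hli : LinearIndependent K (fun j => ρ (R.n (Equiv.swap j0 j)) u) := by
    refine linInd R ρ (χ := fun j i => if i = j then (1 : K) else ω ^ s.val) ?_ (fun j => ρ_inj ρ _ hu) hb
    intro j j' h
    have h1 := congrFun h j
    simp only [if_true] at h1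
    by_contra hne'
    rw [if_neg hne'] at h1
    exact hζ1 h1.symm
  refine ⟨basisOfLinearIndependentOfCardEqFinrank hli (by rw [Fintype.card_fin, hV]), ω ^ s.val, hζ, fun i j => ?_⟩
  rw [coe_basisOfLinearIndependentOfCardEqFinrank]
  exact hb j i

end Cfsg.Agent.H84.HT

/-!
# S3540, `U4(2)` in dimension 4: the geometry of the weight vectors (helper84)

`Cf` : a faithful representation of a group with a frame, with a basis of weight vectors.
-/

set_option autoImplicit false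
set_option linter.unusedSectionVars false

namespace Cfsg.Agent.H84.HT

open Module Subgroup

/-- a faithful representation of degree 4 with a frame and a basis of weight vectors -/
structure Cf (L : Type*) [Group L] (K V : Type*) [Field K] [AddCommGroup V] [Module K V] where
  R : Fr L
  ρ : L →* Module.End K V
  inj : Function.Injective ρ
  b : Basis (Fin 4) K V
  ζ : K
  hζ : ζ ^ 2 + ζ + 1 = 0
  h3 : (3 : K) ≠ 0
  hb : ∀ i j, ρ (R.r i) (b j) = (if i = j then (1 : K) else ζ) • b j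

variable {L : Type*} [Group L] {K V : Type*} [Field K] [AddCommGroup V] [Module K V] (C : Cf L K V)

namespace Cf

theorem ζ3 : C.ζ ^ 3 = 1 := by linear_combination (C.ζ - 1) * C.hζ

theorem ζ_ne_one : C.ζ ≠ 1 := by
  intro h
  have := C.hζ
  rw [h] at this
  apply C.h3
  linear_combination this

/-- the powers of `ζ` -/
def e (k : ZMod 3) : K := C.ζ ^ k.val

theorem e_zero : C.e 0 = 1 := pow_zero _

theorem e_one : C.e 1 = C.ζ := pow_one _

theorem e_natCast (n : ℕ) : C.e (n : ZMod 3) = C.ζ ^ n := by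
  unfold e
  rw [ZMod.val_natCast]
  conv_rhs => rw [← Nat.mod_add_div n 3, pow_add, pow_mul, C.ζ3, one_pow, mul_one]

theorem e_add (a b : ZMod 3) : C.e (a + b) = C.e a * C.e b := by
  obtain ⟨m, rfl⟩ : ∃ m : ℕ, (m : ZMod 3) = a := ⟨a.val, by simp⟩
  obtain ⟨n, rfl⟩ : ∃ n : ℕ, (n : ZMod 3) = b := ⟨b.val, by simp⟩
  rw [← Nat.cast_add, e_natCast, e_natCast, e_natCast, pow_add]

theorem e_inj {a b : ZMod 3} (h : C.e a = C.e b) : a = b := pow_val_inj C.hζ C.h3 h

theorem e_ne (a : ZMod 3) : C.e a ≠ 0 := by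
  intro h
  have h1 : C.e (a + -a) = 1 := by rw [add_neg_cancel, e_zero]
  rw [e_add, h, zero_mul] at h1
  exact zero_ne_one h1

/-- `g` acts diagonally with exponents `a` -/
def Dg (g : L) (a : Fin 4 → ZMod 3) : Prop := ∀ j, C.ρ g (C.b j) = C.e (a j) • C.b j

theorem Dg.mul {g h : L} {a a' : Fin 4 → ZMod 3} (hg : C.Dg g a) (hh : C.Dg h a') : C.Dg (g * h) (a + a') := by
  intro j
  rw [map_mul, Module.End.mul_apply, hh, map_smul, hg, smul_smul, Pi.add_apply, add_comm, e_add]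

theorem Dg.unique {g : L} {a a' : Fin 4 → ZMod 3} (hg : C.Dg g a) (hh : C.Dg g a') : a = a' := by
  funext j
  apply C.e_inj
  have h1 := (hg j).symm.trans (hh j)
  exact smul_left_injective K (C.b.ne_zero j) h1

theorem Dg.ext {g h : L} {a : Fin 4 → ZMod 3} (hg : C.Dg g a) (hh : C.Dg h a) : g = h :=
  C.inj (C.b.ext fun j => by rw [hg, hh])

theorem dg_one : C.Dg 1 0 := by
  intro j
  rw [map_one, Pi.zero_apply, e_zero, one_smul]
  rfl

theorem Dg.inv {g : L} {a : Fin 4 → ZMod 3} (hg : C.Dg g a) : C.Dg g⁻¹ (-a) := by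
  intro j
  have h1 : C.ρ g⁻¹ (C.ρ g (C.b j)) = C.b j := by
    rw [← Module.End.mul_apply, ← map_mul, inv_mul_cancel, map_one]
    rfl
  rw [hg, map_smul] at h1
  have h2 : C.e (-a j) * C.e (a j) = 1 := by rw [← e_add, neg_add_cancel, e_zero]
  calc C.ρ g⁻¹ (C.b j) = (C.e (-a j) * C.e (a j)) • C.ρ g⁻¹ (C.b j) := by rw [h2, one_smul]
    _ = C.e (-a j) • C.b j := by rw [mul_smul, h1]

theorem dg_r (i : Fin 4) : C.Dg (C.R.r i) (fun j => if i = j then 0 else 1) := by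
  intro j
  rw [C.hb]
  show _ = C.e (if i = j then 0 else 1) • _
  by_cases h : i = j
  · rw [if_pos h, if_pos h, e_zero]
  · rw [if_neg h, if_neg h, e_one]

theorem Dg.pow {g : L} {a : Fin 4 → ZMod 3} (hg : C.Dg g a) (n : ℕ) : C.Dg (g ^ n) (n • a) := by
  induction n with
  | zero => rw [pow_zero, zero_smul]; exact C.dg_one
  | succ n ih => rw [pow_succ, succ_nsmul]; exact Dg.mul C ih hg

/-- the diagonal group -/
def A : Subgroup L where
  carrier := {g | ∃ a : Fin 4 → ZMod 3, a 0 + a 1 + a 2 + a 3 = 0 ∧ C.Dg g a}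
  one_mem' := ⟨0, by simp, C.dg_one⟩
  mul_mem' := by
    rintro g h ⟨a, ha, hg⟩ ⟨a', ha', hh⟩
    refine ⟨a + a', ?_, Dg.mul C hg hh⟩
    simp only [Pi.add_apply]
    linear_combination ha + ha'
  inv_mem' := by
    rintro g ⟨a, ha, hg⟩
    refine ⟨-a, ?_, Dg.inv C hg⟩
    simp only [Pi.neg_apply]
    linear_combination -ha

theorem mem_A {g : L} : g ∈ C.A ↔ ∃ a : Fin 4 → ZMod 3, a 0 + a 1 + a 2 + a 3 = 0 ∧ C.Dg g a := Iff.rfl

theorem r_mem (i : Fin 4) : C.R.r i ∈ C.A := ⟨_, by fin_cases i <;> decide, C.dg_r i⟩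

/-- every exponent vector of sum zero occurs -/
theorem exists_dg (a : Fin 4 → ZMod 3) (ha : a 0 + a 1 + a 2 + a 3 = 0) : ∃ g ∈ C.A, C.Dg g a := by
  refine ⟨C.R.r 0 ^ (-a 0).val * C.R.r 1 ^ (-a 1).val * C.R.r 2 ^ (-a 2).val * C.R.r 3 ^ (-a 3).val,
    mul_mem (mul_mem (mul_mem (pow_mem (C.r_mem 0) _) (pow_mem (C.r_mem 1) _)) (pow_mem (C.r_mem 2) _))
      (pow_mem (C.r_mem 3) _), ?_⟩
  have h := Dg.mul C (Dg.mul C (Dg.mul C (Dg.pow C (C.dg_r 0) (-a 0).val) (Dg.pow C (C.dg_r 1) (-a 1).val))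
    (Dg.pow C (C.dg_r 2) (-a 2).val)) (Dg.pow C (C.dg_r 3) (-a 3).val)
  have hv : ∀ x : ZMod 3, (((x.val : ℕ) : ZMod 3)) = x := fun x => by simp
  convert h using 1
  funext j
  simp only [Pi.add_apply, Pi.smul_apply, smul_ite, smul_zero, nsmul_one, hv]
  fin_cases j <;> simp <;> linear_combination ha

/-- a subset of `A` with exponents in a set of at most `n` vectors -/
theorem card_le_of {n : ℕ} {Y : Subgroup L} (s : Finset (Fin 4 → ZMod 3)) (hs : s.card ≤ n)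
    (h : ∀ g ∈ Y, ∃ a ∈ s, C.Dg g a) : Nat.card Y ≤ n := by
  choose f hf1 hf2 using fun g : Y => h g g.2
  have hinj : Function.Injective (fun g : Y => (⟨f g, hf1 g⟩ : s)) := by
    intro g g' hgg
    have h1 : f g = f g' := congrArg Subtype.val hgg
    apply Subtype.ext
    refine Dg.ext C (hf2 g) ?_
    rw [h1]
    exact hf2 g'
  have h1 := Nat.card_le_card_of_injective _ hinj
  rw [Nat.card_eq_fintype_card (α := s), Fintype.card_coe] at h1
  exact h1.trans hs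

theorem card_A : Nat.card C.A = 27 := by
  apply le_antisymm
  · refine C.card_le_of (Finset.univ.filter fun a : Fin 4 → ZMod 3 => a 0 + a 1 + a 2 + a 3 = 0) (by decide +kernel) ?_
    rintro g ⟨a, ha, hg⟩
    exact ⟨a, by simp [ha], hg⟩
  · have hfin : Finite C.A := by
      choose f hf1 hf2 using fun g : C.A => C.mem_A.1 g.2
      exact Finite.of_injective f fun g g' h => Subtype.ext (Dg.ext C (hf2 g) (h ▸ hf2 g'))
    choose f hf1 hf2 using C.exists_dg
    have hinj : Function.Injective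
        (fun a : {a : Fin 4 → ZMod 3 // a 0 + a 1 + a 2 + a 3 = 0} => (⟨f a.1 a.2, hf1 a.1 a.2⟩ : C.A)) := by
      intro a a' h
      have h1 : f a.1 a.2 = f a'.1 a'.2 := congrArg Subtype.val h
      exact Subtype.ext (Dg.unique C (hf2 a.1 a.2) (h1 ▸ hf2 a'.1 a'.2))
    have h1 := Nat.card_le_card_of_injective _ hinj
    have h2 : Nat.card {a : Fin 4 → ZMod 3 // a 0 + a 1 + a 2 + a 3 = 0} = 27 := by
      rw [Nat.card_eq_fintype_card]
      decide +kernel
    rwa [h2] at h1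

theorem A_pow {g : L} (hg : g ∈ C.A) : g ^ 3 = 1 := by
  obtain ⟨a, -, ha⟩ := hg
  refine Dg.ext C (Dg.pow C ha 3) ?_
  have h : (3 : ℕ) • a = 0 := by
    funext j
    rw [Pi.smul_apply, nsmul_eq_mul]
    have h3 : ((3 : ℕ) : ZMod 3) = 0 := rfl
    rw [h3, zero_mul]
    rfl
  rw [h]
  exact C.dg_one

/-- `g` permutes the `r i` by `σ` -/
def Pm (g : L) (σ : Equiv.Perm (Fin 4)) : Prop := ∀ i, g * C.R.r i * g⁻¹ = C.R.r (σ i)

theorem Pm.mul {g h : L} {σ σ' : Equiv.Perm (Fin 4)} (hg : C.Pm g σ) (hh : C.Pm h σ') : C.Pm (g * h) (σ * σ') := by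
  intro i
  rw [Equiv.Perm.mul_apply, ← hg, ← hh]
  group

theorem pm_one : C.Pm 1 1 := fun i => by rw [one_mul, inv_one, mul_one]; rfl

theorem Pm.pow {g : L} {σ : Equiv.Perm (Fin 4)} (hg : C.Pm g σ) (n : ℕ) : C.Pm (g ^ n) (σ ^ n) := by
  induction n with
  | zero => rw [pow_zero, pow_zero]; exact C.pm_one
  | succ n ih => rw [pow_succ, pow_succ]; exact Pm.mul C ih hg

theorem pm_n (σ : Equiv.Perm (Fin 4)) : C.Pm (C.R.n σ) σ := C.R.conj σ

theorem pm_c : C.Pm C.R.c τ := C.R.c_conj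

theorem ρ_inv_apply (g : L) (v : V) : C.ρ g (C.ρ g⁻¹ v) = v := by
  rw [← Module.End.mul_apply, ← map_mul, mul_inv_cancel, map_one]
  rfl

theorem ρ_inv_apply' (g : L) (v : V) : C.ρ g⁻¹ (C.ρ g v) = v := by
  rw [← Module.End.mul_apply, ← map_mul, inv_mul_cancel, map_one]
  rfl

/-- a vector with the weight of `b k` is a multiple of `b k` -/
theorem eq_smul_of_weight {k : Fin 4} {w : V} (h : ∀ i, C.ρ (C.R.r i) w = (if i = k then (1 : K) else C.ζ) • w) :
    ∃ x : K, w = x • C.b k := by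
  refine ⟨C.b.repr w k, ?_⟩
  have h1 := h k
  rw [if_pos rfl, one_smul] at h1
  have h2 : ∀ m, m ≠ k → C.b.repr w m = 0 := by
    intro m hm
    have h3 : C.ρ (C.R.r k) w = ∑ j, (C.b.repr w j * (if k = j then (1 : K) else C.ζ)) • C.b j := by
      conv_lhs => rw [← C.b.sum_repr w]
      rw [map_sum]
      refine Finset.sum_congr rfl fun j _ => ?_
      rw [map_smul, C.hb, smul_smul]
    rw [h1] at h3
    have h4 := congrArg (fun x => C.b.repr x m) h3
    simp only [map_sum, map_smul, Finsupp.coe_finsetSum, Finset.sum_apply, Finsupp.smul_apply, Basis.repr_self,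
      Finsupp.single_apply, smul_eq_mul, mul_ite, mul_one, mul_zero, Finset.sum_ite_eq',
      Finset.mem_univ, if_true] at h4
    rw [if_neg (Ne.symm hm)] at h4
    have h5 : C.b.repr w m * (1 - C.ζ) = 0 := by linear_combination h4
    exact (mul_eq_zero.1 h5).resolve_right (sub_ne_zero.2 C.ζ_ne_one.symm)
  conv_lhs => rw [← C.b.sum_repr w]
  rw [Finset.sum_eq_single k (fun m _ hm => by rw [h2 m hm, zero_smul]) (fun h => absurd (Finset.mem_univ _) h)]

theorem Pm.apply {g : L} {σ : Equiv.Perm (Fin 4)} (hg : C.Pm g σ) (j : Fin 4) :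
    ∃ x : K, x ≠ 0 ∧ C.ρ g (C.b j) = x • C.b (σ j) := by
  obtain ⟨x, hx⟩ := C.eq_smul_of_weight (k := σ j) (w := C.ρ g (C.b j)) (by
    intro i
    have h1 : C.R.r i * g = g * C.R.r (σ.symm i) := by
      have h2 := hg (σ.symm i)
      rw [Equiv.apply_symm_apply] at h2
      rw [← h2, inv_mul_cancel_right]
    rw [← Module.End.mul_apply, ← map_mul, h1, map_mul, Module.End.mul_apply, C.hb, map_smul]
    congr 1
    by_cases h : i = σ j
    · rw [if_pos h, if_pos (by rw [h, Equiv.symm_apply_apply])]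
    · rw [if_neg h, if_neg (fun h' => h (by rw [← h', Equiv.apply_symm_apply]))])
  refine ⟨x, ?_, hx⟩
  rintro rfl
  rw [zero_smul] at hx
  exact ρ_inj C.ρ g (C.b.ne_zero j) hx

/-- conjugation of diagonal elements -/
theorem Dg.conj {g t : L} {σ : Equiv.Perm (Fin 4)} {a : Fin 4 → ZMod 3} (hg : C.Pm g σ) (ht : C.Dg t a) :
    C.Dg (g⁻¹ * t * g) (fun j => a (σ j)) := by
  intro j
  obtain ⟨x, hx, hx'⟩ := Pm.apply C hg j
  rw [map_mul, map_mul, Module.End.mul_apply, Module.End.mul_apply, hx', map_smul, ht, map_smul, map_smul]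
  have h1 := C.ρ_inv_apply' g (C.b j)
  rw [hx', map_smul] at h1
  rw [smul_comm, h1]

theorem sum_perm : ∀ (σ : Equiv.Perm (Fin 4)) (a : Fin 4 → ZMod 3), a 0 + a 1 + a 2 + a 3 = 0 →
    a (σ 0) + a (σ 1) + a (σ 2) + a (σ 3) = 0 := by
  intro σ a ha
  have h1 := Equiv.sum_comp σ a
  rw [Fin.sum_univ_four, Fin.sum_univ_four] at h1
  rw [h1, ha]

theorem Pm.conj_mem {g t : L} {σ : Equiv.Perm (Fin 4)} (hg : C.Pm g σ) (ht : t ∈ C.A) : g⁻¹ * t * g ∈ C.A := by
  obtain ⟨a, ha, hd⟩ := ht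
  exact ⟨_, sum_perm σ a ha, Dg.conj C hg hd⟩

theorem Pm.inv {g : L} {σ : Equiv.Perm (Fin 4)} (hg : C.Pm g σ) : C.Pm g⁻¹ σ⁻¹ := by
  intro i
  have h1 := hg (σ⁻¹ i)
  have h4 : σ (σ⁻¹ i) = i := σ.apply_symm_apply i
  rw [h4] at h1
  rw [← h1]
  group

theorem Pm.conj_mem' {g t : L} {σ : Equiv.Perm (Fin 4)} (hg : C.Pm g σ) (ht : t ∈ C.A) : g * t * g⁻¹ ∈ C.A := by
  have := Pm.conj_mem C (Pm.inv C hg) ht
  rwa [inv_inv] at this

theorem A_comm {s t : L} (hs : s ∈ C.A) (ht : t ∈ C.A) : s * t = t * s := by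
  obtain ⟨a, -, ha⟩ := hs
  obtain ⟨a', -, ha'⟩ := ht
  refine Dg.ext C (Dg.mul C ha ha') ?_
  rw [add_comm]
  exact Dg.mul C ha' ha

theorem pm_A {t : L} (ht : t ∈ C.A) : C.Pm t 1 := by
  intro i
  rw [C.A_comm ht (C.r_mem i), mul_inv_cancel_right]
  rfl

theorem r_inj {i j : Fin 4} (h : C.R.r i = C.R.r j) : i = j := by
  by_contra hne
  have h1 := C.hb i i
  rw [h, C.hb, if_pos rfl, if_neg (Ne.symm hne)] at h1
  exact C.ζ_ne_one (smul_left_injective K (C.b.ne_zero i) h1)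

theorem Pm.unique {g : L} {σ σ' : Equiv.Perm (Fin 4)} (h : C.Pm g σ) (h' : C.Pm g σ') : σ = σ' := by
  ext i : 1
  exact C.r_inj ((h i).symm.trans (h' i))

end Cf

end Cfsg.Agent.H84.HT

/-!
# S3540, `U4(2)` in dimension 4: common eigenvectors of 3-subgroups (helper84)
-/

set_option autoImplicit false
set_option linter.unusedSectionVars false

namespace Cfsg.Agent.H84.HT

open Module Subgroup
open scoped Pointwise

variable {L : Type*} [Group L] [Finite L] {K V : Type*} [Field K] [AddCommGroup V] [Module K V] (C : Cf L K V)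

namespace Cf

theorem c_notMem : C.R.c ∉ C.A := by
  intro h
  have h1 := Pm.unique C (C.pm_A h) C.pm_c
  exact absurd h1 (by decide)

theorem c_ne : C.R.c ≠ 1 := fun h => C.c_notMem (h ▸ C.A.one_mem)

theorem orderOf_c : orderOf C.R.c = 3 := by
  have : Fact (Nat.Prime 3) := ⟨Nat.prime_three⟩
  exact orderOf_eq_prime C.R.c_pow C.c_ne

theorem normalizes : zpowers C.R.c ≤ normalizer (C.A : Set L) := by
  rw [zpowers_le, mem_normalizer_iff]
  intro t
  refine ⟨fun ht => Pm.conj_mem' C C.pm_c ht, fun ht => ?_⟩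
  have h1 := Pm.conj_mem C C.pm_c ht
  have h2 : C.R.c⁻¹ * (C.R.c * t * C.R.c⁻¹) * C.R.c = t := by group
  rwa [h2] at h1

/-- the Sylow 3-subgroup -/
def P : Subgroup L := C.A ⊔ zpowers C.R.c

theorem coe_P : (C.P : Set L) = (C.A : Set L) * (zpowers C.R.c : Set L) :=
  Subgroup.coe_mul_of_right_le_normalizer_left C.A (zpowers C.R.c) C.normalizes

theorem mem_P {g : L} (hg : g ∈ C.P) : ∃ a ∈ C.A, ∃ k : ℕ, g = a * C.R.c ^ k := by
  have h1 : g ∈ (C.A : Set L) * (zpowers C.R.c : Set L) := by rw [← C.coe_P]; exact hg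
  obtain ⟨a, ha, x, hx, rfl⟩ := Set.mem_mul.1 h1
  obtain ⟨k, hk⟩ := mem_powers_iff_mem_zpowers.2 hx
  exact ⟨a, ha, k, by rw [← hk]⟩

theorem card_P : Nat.card C.P = 81 := by
  have h3 : Fact (Nat.Prime 3) := ⟨Nat.prime_three⟩
  have h1 := Lib.ProductSet.card_mul_card_inf C.A (zpowers C.R.c)
  have h2 : C.A ⊓ zpowers C.R.c = ⊥ := by
    have hc : Nat.card (zpowers C.R.c) = 3 := by rw [Nat.card_zpowers, C.orderOf_c]
    have h4 : Nat.card (C.A ⊓ zpowers C.R.c : Subgroup L) ∣ 3 := hc ▸ card_dvd_of_le inf_le_right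
    rcases (Nat.dvd_prime Nat.prime_three).1 h4 with h5 | h5
    · exact card_eq_one.1 h5
    · exfalso
      have h6 : (C.A ⊓ zpowers C.R.c : Subgroup L) = zpowers C.R.c :=
        eq_of_le_of_card_ge inf_le_right (by rw [h5, hc])
      have h7 : C.R.c ∈ (C.A ⊓ zpowers C.R.c : Subgroup L) := by rw [h6]; exact mem_zpowers _
      exact C.c_notMem h7.1
  rw [h2, card_bot, mul_one, C.card_A, Nat.card_zpowers, C.orderOf_c, ← C.coe_P] at h1
  exact h1

theorem not_dvd_center (hz : ∀ z ∈ center L, z ^ 4 = 1) : ¬ 3 ∣ Nat.card (center L) := by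
  have h3 : Fact (Nat.Prime 3) := ⟨Nat.prime_three⟩
  intro h
  obtain ⟨⟨z, hzc⟩, hz3⟩ := exists_prime_orderOf_dvd_card' 3 h
  rw [orderOf_mk] at hz3
  have h1 := orderOf_dvd_of_pow_eq_one (hz z hzc)
  rw [hz3] at h1
  omega

theorem not_dvd_index (hL : Nat.card L = Nat.card (center L) * 25920) (hz : ∀ z ∈ center L, z ^ 4 = 1) :
    ¬ 3 ∣ C.P.index := by
  have h1 := C.P.card_mul_index
  rw [C.card_P, hL] at h1
  have h2 : C.P.index = Nat.card (center L) * 320 := by omega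
  rw [h2]
  intro h3
  rcases (Nat.Prime.dvd_mul Nat.prime_three).1 h3 with h4 | h4
  · exact not_dvd_center hz h4
  · omega

theorem isPGroup_P : IsPGroup 3 C.P := IsPGroup.of_card (n := 4) (by rw [C.card_P]; norm_num)

/-- 3-subgroups are conjugate to subgroups of `P` -/
theorem exists_conj (hL : Nat.card L = Nat.card (center L) * 25920) (hz : ∀ z ∈ center L, z ^ 4 = 1)
    {X : Subgroup L} (hX : IsPGroup 3 X) : ∃ g : L, X.map (MulAut.conj g).toMonoidHom ≤ C.P := by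
  have h3 : Fact (Nat.Prime 3) := ⟨Nat.prime_three⟩
  obtain ⟨Q, hQ⟩ := hX.exists_le_sylow
  obtain ⟨g, hg⟩ := MulAction.exists_smul_eq L Q (C.isPGroup_P.toSylow (C.not_dvd_index hL hz))
  refine ⟨g, ?_⟩
  have h2 : (Q : Subgroup L).map (MulAut.conj g).toMonoidHom = C.P :=
    congrArg (fun S : Sylow 3 L => (S : Subgroup L)) hg
  rw [← h2]
  exact map_mono hQ

/-! ### case 1: subgroups of order at least 27 -/

theorem dec1 : ∀ i j : Fin 4, i ≠ j → ∀ k : Fin 3, k ≠ 0 →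
    (Finset.univ.filter fun a : Fin 4 → ZMod 3 => a 0 + a 1 + a 2 + a 3 = 0 ∧ a i = a j ∧
      a ((τ ^ (k : ℕ)) i) = a ((τ ^ (k : ℕ)) j)).card ≤ 3 := by decide +kernel

theorem dec2 : ∀ i j : Fin 4, i ≠ j →
    (Finset.univ.filter fun a : Fin 4 → ZMod 3 => a 0 + a 1 + a 2 + a 3 = 0 ∧ a i = a j).card ≤ 9 := by decide +kernel

theorem τ_pow_mod (k : ℕ) : τ ^ k = τ ^ (k % 3) := by
  have h : τ ^ 3 = 1 := by decide
  conv_lhs => rw [← Nat.mod_add_div k 3, pow_add, pow_mul, h, one_pow, mul_one]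

theorem c_pow_mod (k : ℕ) : C.R.c ^ k = C.R.c ^ (k % 3) := by
  conv_lhs => rw [← Nat.mod_add_div k 3, pow_add, pow_mul, C.R.c_pow, one_pow, mul_one]

/-- the exponents of an eigenvector -/
theorem exp_eq {y : L} {a : Fin 4 → ZMod 3} (hy : C.Dg y a) {v : V} {x : K} (hv : C.ρ y v = x • v) {i : Fin 4}
    (hi : C.b.repr v i ≠ 0) : C.e (a i) = x := by
  have h1 : C.ρ y v = ∑ j, (C.b.repr v j * C.e (a j)) • C.b j := by
    conv_lhs => rw [← C.b.sum_repr v]
    rw [map_sum]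
    refine Finset.sum_congr rfl fun j _ => ?_
    rw [map_smul, hy, smul_smul]
  rw [hv] at h1
  have h2 := congrArg (fun w => C.b.repr w i) h1
  simp only [map_sum, map_smul, Finsupp.coe_finsetSum, Finset.sum_apply, Finsupp.smul_apply, Basis.repr_self,
    Finsupp.single_apply, smul_eq_mul, mul_ite, mul_one, mul_zero, Finset.sum_ite_eq',
    Finset.mem_univ, if_true] at h2
  have h3 : C.b.repr v i * (x - C.e (a i)) = 0 := by linear_combination h2
  exact (sub_eq_zero.1 ((mul_eq_zero.1 h3).resolve_left hi)).symm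

theorem line_of_le {X : Subgroup L} (hXP : X ≤ C.P) (hX : 27 ≤ Nat.card X) {v : V}
    (h : ∀ x ∈ X, ∃ c : K, C.ρ x v = c • v) {i j : Fin 4} (hij : i ≠ j) (hi : C.b.repr v i ≠ 0)
    (hj : C.b.repr v j ≠ 0) : False := by
  -- the exponents on `X ⊓ A`
  have hY : ∀ y ∈ X ⊓ C.A, ∃ a : Fin 4 → ZMod 3, a 0 + a 1 + a 2 + a 3 = 0 ∧ C.Dg y a ∧ a i = a j := by
    rintro y ⟨hyX, a, ha, hya⟩
    obtain ⟨c, hc⟩ := h y hyX
    exact ⟨a, ha, hya, C.e_inj ((C.exp_eq hya hc hi).trans (C.exp_eq hya hc hj).symm)⟩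
  have hY9 : Nat.card (X ⊓ C.A : Subgroup L) ≤ 9 := by
    refine C.card_le_of _ (dec2 i j hij) fun y hy => ?_
    obtain ⟨a, h1, h2, h3⟩ := hY y hy
    exact ⟨a, by simp [h1, h3], h2⟩
  -- an element outside `A`
  obtain ⟨x, hxX, hxA⟩ : ∃ x ∈ X, x ∉ C.A := by
    by_contra hcon
    push Not at hcon
    have h1 : X ⊓ C.A = X := inf_eq_left.2 hcon
    rw [h1] at hY9
    omega
  obtain ⟨a, haA, k, rfl⟩ := C.mem_P (hXP hxX)
  have hk : k % 3 ≠ 0 := by
    intro h0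
    rw [C.c_pow_mod, h0, pow_zero, mul_one] at hxA
    exact hxA haA
  have hpm : C.Pm (a * C.R.c ^ k) (τ ^ (k % 3)) := by
    have h1 := Pm.mul C (C.pm_A haA) (Pm.pow C C.pm_c k)
    rw [one_mul, τ_pow_mod] at h1
    exact h1
  have hY3 : Nat.card (X ⊓ C.A : Subgroup L) ≤ 3 := by
    have hk3 : k % 3 < 3 := Nat.mod_lt _ (by norm_num)
    refine C.card_le_of _ (dec1 i j hij ⟨k % 3, hk3⟩ (fun h0 => hk (congrArg Fin.val h0))) fun y hy => ?_
    obtain ⟨a', h1, h2, h3⟩ := hY y hy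
    refine ⟨a', ?_, h2⟩
    have h4 : (a * C.R.c ^ k)⁻¹ * y * (a * C.R.c ^ k) ∈ X ⊓ C.A :=
      ⟨X.mul_mem (X.mul_mem (X.inv_mem hxX) hy.1) hxX, Pm.conj_mem C hpm hy.2⟩
    obtain ⟨a'', -, h5, h6⟩ := hY _ h4
    have h7 := Dg.unique C h5 (Dg.conj C hpm h2)
    rw [h7] at h6
    simp only [Finset.mem_filter, Finset.mem_univ, true_and]
    exact ⟨h1, h3, h6⟩
  -- the order of `X ⊓ A`
  have h1 := Lib.ProductSet.card_mul_card_inf X C.A
  have h2 : Nat.card ((X : Set L) * (C.A : Set L) : Set L) ≤ Nat.card C.P := by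
    refine Nat.card_mono (Set.toFinite _) ?_
    rintro _ ⟨x, hx, y, hy, rfl⟩
    exact mul_mem (hXP hx) ((le_sup_left : C.A ≤ C.P) hy)
  rw [C.card_P] at h2
  rw [C.card_A] at h1
  have h3 : Nat.card X * 27 ≤ 81 * 3 := by rw [← h1]; exact Nat.mul_le_mul h2 hY3
  omega

theorem eq_smul_of_coord {v : V} (hv : v ≠ 0) (h : ∀ i j : Fin 4, i ≠ j → C.b.repr v i ≠ 0 → C.b.repr v j ≠ 0 → False) :
    ∃ (j : Fin 4) (x : K), x ≠ 0 ∧ v = x • C.b j := by
  obtain ⟨j, hj⟩ : ∃ j, C.b.repr v j ≠ 0 := by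
    by_contra hcon
    push Not at hcon
    apply hv
    rw [← C.b.sum_repr v]
    exact Finset.sum_eq_zero fun j _ => by rw [hcon j, zero_smul]
  refine ⟨j, C.b.repr v j, hj, ?_⟩
  conv_lhs => rw [← C.b.sum_repr v]
  refine Finset.sum_eq_single j (fun m _ hm => ?_) (fun h => absurd (Finset.mem_univ _) h)
  by_contra h0
  exact h m j hm (fun h1 => h0 (by rw [h1, zero_smul])) hj

/-- **common eigenvectors of subgroups of order at least 27** -/
theorem line_of_27 (hL : Nat.card L = Nat.card (center L) * 25920) (hz : ∀ z ∈ center L, z ^ 4 = 1)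
    {X : Subgroup L} (hXp : IsPGroup 3 X) (hX : 27 ≤ Nat.card X) {v : V} (hv : v ≠ 0)
    (h : ∀ x ∈ X, ∃ c : K, C.ρ x v = c • v) : ∃ (g : L) (j : Fin 4) (x : K), x ≠ 0 ∧ v = C.ρ g (x • C.b j) := by
  obtain ⟨g, hg⟩ := C.exists_conj hL hz hXp
  have h1 := C.eq_smul_of_coord (ρ_inj C.ρ g hv) fun i j hij hi hj =>
    C.line_of_le (X := X.map (MulAut.conj g).toMonoidHom) hg (by
      rw [Subgroup.card_map_of_injective (MulAut.conj g).injective]
      exact hX) (v := C.ρ g v) (by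
      rintro _ ⟨x, hx, rfl⟩
      obtain ⟨c, hc⟩ := h x hx
      refine ⟨c, ?_⟩
      show C.ρ (g * x * g⁻¹) (C.ρ g v) = _
      rw [map_mul, map_mul, Module.End.mul_apply, Module.End.mul_apply, C.ρ_inv_apply', hc, map_smul]) hij hi hj
  obtain ⟨j, x, hx, hx'⟩ := h1
  refine ⟨g⁻¹, j, x, hx, ?_⟩
  rw [← hx', C.ρ_inv_apply']

/-! ### case 2: elements of order 3 -/

theorem dec3 : ∀ a : Fin 4 → ZMod 3, a 0 + a 1 + a 2 + a 3 = 0 → a ≠ 0 →
    ∃ i j : Fin 4, i ≠ j ∧ ∀ m, a m = 0 → m = i ∨ m = j := by decide +kernel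

theorem dec4 : ∀ k : Fin 3, k ≠ 0 → ∀ a : Fin 4 → ZMod 3, a 0 + a 1 + a 2 + a 3 = 0 →
    a 0 + a ((τ ^ (k : ℕ)) 0) + a (((τ ^ (k : ℕ)) * (τ ^ (k : ℕ))) 0) = 0 →
    ∃ t : Fin 4 → ZMod 3, t 0 + t 1 + t 2 + t 3 = 0 ∧ ∀ j, a ((τ ^ (k : ℕ)) j) = t ((τ ^ (k : ℕ)) j) - t j := by
  decide +kernel

/-- the fixed vectors of the elements of `A` -/
theorem plane_of_A {y : L} (hy : y ∈ C.A) (hy1 : y ≠ 1) {v : V} (hv : C.ρ y v = v) :
    ∃ i j : Fin 4, i ≠ j ∧ ∃ c d : K, v = c • C.b i + d • C.b j := by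
  obtain ⟨a, ha, hya⟩ := hy
  have ha0 : a ≠ 0 := by
    rintro rfl
    exact hy1 (Dg.ext C hya C.dg_one)
  obtain ⟨i, j, hij, hm⟩ := dec3 a ha ha0
  refine ⟨i, j, hij, C.b.repr v i, C.b.repr v j, ?_⟩
  have h0 : ∀ m, m ≠ i ∧ m ≠ j → C.b.repr v m • C.b m = 0 := by
    rintro m ⟨h1, h2⟩
    by_contra h0
    have h3 : C.b.repr v m ≠ 0 := fun h => h0 (by rw [h, zero_smul])
    have h4 := C.exp_eq hya (x := 1) (by rw [hv, one_smul]) h3
    rw [← C.e_zero] at h4
    rcases hm m (C.e_inj h4) with h5 | h5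
    · exact h1 h5
    · exact h2 h5
  conv_lhs => rw [← C.b.sum_repr v]
  rw [← Finset.sum_subset (Finset.subset_univ ({i, j} : Finset (Fin 4))) (fun m _ hm' => h0 m (by
    simp only [Finset.mem_insert, Finset.mem_singleton, not_or] at hm'
    exact hm')), Finset.sum_pair hij]

theorem mem_conj_A {x : L} (hxP : x ∈ C.P) (hx3 : x ^ 3 = 1) : ∃ g : L, g⁻¹ * x * g ∈ C.A := by
  obtain ⟨a, haA, k, rfl⟩ := C.mem_P hxP
  rw [C.c_pow_mod] at hx3 ⊢
  have hk3 : k % 3 < 3 := Nat.mod_lt _ (by norm_num)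
  generalize hkk : k % 3 = l at hx3 hk3 ⊢
  by_cases hl : l = 0
  · refine ⟨1, ?_⟩
    rw [hl, pow_zero, mul_one, inv_one, one_mul, mul_one]
    exact haA
  set c := C.R.c ^ l with hc
  have hpc : C.Pm c (τ ^ l) := Pm.pow C C.pm_c l
  have hc3 : c ^ 3 = 1 := by rw [hc, ← pow_mul, mul_comm, pow_mul, C.R.c_pow, one_pow]
  obtain ⟨e, he, hae⟩ := haA
  -- the norm of `a`
  have hnorm : e 0 + e ((τ ^ l) 0) + e (((τ ^ l) * (τ ^ l)) 0) = 0 := by
    have h1 : (c⁻¹ * a * c) * ((c * c)⁻¹ * a * (c * c)) * a = 1 := by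
      have h2 : c * c = c⁻¹ := by
        rw [eq_inv_iff_mul_eq_one]
        rw [← hc3, pow_succ, pow_two]
      have h4 : (a * c) ^ 3 = a * (c * a * c⁻¹) * (c * c * a * (c * c)⁻¹) * c ^ 3 := by
        rw [pow_succ, pow_two, pow_succ c, pow_two]
        group
      rw [hx3, hc3, mul_one] at h4
      have h5 : c * a * c⁻¹ = (c * c)⁻¹ * a * (c * c) := by rw [h2, inv_inv]
      have h6 : c * c * a * (c * c)⁻¹ = c⁻¹ * a * c := by rw [h2, inv_inv]
      rw [h5, h6] at h4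
      have h7 : C.Dg ((c * c)⁻¹ * a * (c * c)) (fun j => e (((τ ^ l) * (τ ^ l)) j)) :=
        Dg.conj C (Pm.mul C hpc hpc) hae
      have h8 : C.Dg (c⁻¹ * a * c) (fun j => e ((τ ^ l) j)) := Dg.conj C hpc hae
      have h9 := Dg.mul C (Dg.mul C hae h7) h8
      rw [← h4] at h9
      have h10 := Dg.mul C (Dg.mul C h8 h7) hae
      refine Dg.ext C h10 ?_
      convert h9 using 1
      abel
    have h7 : C.Dg ((c * c)⁻¹ * a * (c * c)) (fun j => e (((τ ^ l) * (τ ^ l)) j)) :=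
      Dg.conj C (Pm.mul C hpc hpc) hae
    have h8 : C.Dg (c⁻¹ * a * c) (fun j => e ((τ ^ l) j)) := Dg.conj C hpc hae
    have h9 := Dg.mul C (Dg.mul C h8 h7) hae
    rw [h1] at h9
    have h10 := congrFun (Dg.unique C C.dg_one h9) 0
    simp only [Pi.add_apply, Pi.zero_apply] at h10
    rw [h10]
    ring
  obtain ⟨t, ht, hta⟩ := dec4 ⟨l, hk3⟩ (fun h0 => hl (congrArg Fin.val h0)) e he hnorm
  obtain ⟨s, hsA, hst⟩ := C.exists_dg t ht
  -- `a c = s c s⁻¹`
  have h1 : a = s * (c * s⁻¹ * c⁻¹) := by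
    have h2 : c⁻¹ * a * c = c⁻¹ * s * c * s⁻¹ := by
      refine Dg.ext C (Dg.conj C hpc hae) ?_
      have h3 := Dg.mul C (Dg.conj C hpc hst) (Dg.inv C hst)
      convert h3 using 1
      funext j
      rw [Pi.add_apply, Pi.neg_apply, ← sub_eq_add_neg]
      exact hta j
    calc a = c * (c⁻¹ * a * c) * c⁻¹ := by group
      _ = c * (c⁻¹ * s * c * s⁻¹) * c⁻¹ := by rw [h2]
      _ = s * (c * s⁻¹ * c⁻¹) := by group
  refine ⟨s * C.R.m, ?_⟩
  have h2 : (s * C.R.m)⁻¹ * (a * c) * (s * C.R.m) = (C.R.r 1 * (C.R.r 2)⁻¹) ^ l := by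
    rw [h1, hc, ← C.R.m_conj, conj_pow]
    group
  rw [h2]
  exact pow_mem (mul_mem (C.r_mem 1) (inv_mem (C.r_mem 2))) l

/-- **fixed vectors of elements of order 3** -/
theorem plane_of_3 (hL : Nat.card L = Nat.card (center L) * 25920) (hz : ∀ z ∈ center L, z ^ 4 = 1)
    {x : L} (hx3 : x ^ 3 = 1) (hx1 : x ≠ 1) {v : V} (hv : C.ρ x v = v) :
    ∃ (g : L) (i j : Fin 4), i ≠ j ∧ ∃ c d : K, v = C.ρ g (c • C.b i + d • C.b j) := by
  have hXp : IsPGroup 3 (zpowers x) := by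
    rintro ⟨_, m, rfl⟩
    refine ⟨1, Subtype.ext ?_⟩
    show (x ^ m) ^ 3 ^ 1 = 1
    rw [pow_one, ← zpow_natCast, ← zpow_mul, mul_comm, zpow_mul, zpow_natCast, hx3, one_zpow]
  obtain ⟨g, hg⟩ := C.exists_conj hL hz hXp
  have h1 : g * x * g⁻¹ ∈ C.P := hg ⟨x, mem_zpowers x, rfl⟩
  obtain ⟨s, hs⟩ := C.mem_conj_A h1 (by rw [conj_pow, hx3, mul_one, mul_inv_cancel])
  obtain ⟨i, j, hij, c, d, h2⟩ := C.plane_of_A hs (v := C.ρ (s⁻¹ * g) v) (by
    intro h0
    apply hx1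
    have h3 : x = g⁻¹ * s * (s⁻¹ * (g * x * g⁻¹) * s) * s⁻¹ * g := by group
    rw [h3, h0]
    group) (by
    rw [← Module.End.mul_apply, ← map_mul]
    have h3 : s⁻¹ * (g * x * g⁻¹) * s * (s⁻¹ * g) = s⁻¹ * g * x := by group
    rw [h3, map_mul, Module.End.mul_apply, hv])
  refine ⟨(s⁻¹ * g)⁻¹, i, j, hij, c, d, ?_⟩
  rw [← h2, C.ρ_inv_apply']

end Cf

end Cfsg.Agent.H84.HT

/-!
# S3540, `U4(2)` in dimension 4: counting (helper84)
-/

set_option autoImplicit false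
set_option linter.unusedSectionVars false

namespace Cfsg.Agent.H84.HT

open Module Subgroup

variable {L : Type*} [Group L] [Finite L] {K V : Type*} [Field K] [AddCommGroup V] [Module K V] (C : Cf L K V)

namespace Cf

/-- covering by the images of a set with a large stabiliser -/
theorem count_le [Finite V] {T : Type*} [Finite T] (f : T → L) (hf : Function.Injective f) (W : Set V)
    (hfW : ∀ t, ∀ w ∈ W, C.ρ (f t) w ∈ W) (hcov : ∀ v : V, v ≠ 0 → ∃ g : L, ∃ w ∈ W, v = C.ρ g w) :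
    Nat.card {v : V // v ≠ 0} * Nat.card T ≤ Nat.card L * Nat.card W := by
  rw [← Nat.card_prod, ← Nat.card_prod]
  choose g w hw hgw using fun v : {v : V // v ≠ 0} => hcov v.1 v.2
  refine Nat.card_le_card_of_injective
    (fun x : {v : V // v ≠ 0} × T => (g x.1 * (f x.2)⁻¹, (⟨C.ρ (f x.2) (w x.1), hfW _ _ (hw _)⟩ : W))) ?_
  rintro ⟨v, t⟩ ⟨v', t'⟩ h
  have h1 : g v * (f t)⁻¹ = g v' * (f t')⁻¹ := congrArg Prod.fst h
  have h2 : C.ρ (f t) (w v) = C.ρ (f t') (w v') := congrArg Subtype.val (congrArg Prod.snd h)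
  have key : ∀ (v : {v : V // v ≠ 0}) (t : T), C.ρ (g v * (f t)⁻¹) (C.ρ (f t) (w v)) = v := by
    intro v t
    rw [map_mul, Module.End.mul_apply, C.ρ_inv_apply', ← hgw]
  have h3 : v = v' := Subtype.ext (by rw [← key v t, ← key v' t', h1, h2])
  subst h3
  have h4 : t = t' := hf (inv_injective (mul_left_cancel h1))
  rw [h4]

/-- the elements `n σ * a * z` -/
theorem inj_nAz (hz : ∀ z ∈ center L, z ^ 4 = 1) (S : Equiv.Perm (Fin 4) → Prop) :
    Function.Injective (fun t : {σ : Equiv.Perm (Fin 4) // S σ} × C.A × center L =>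
      C.R.n t.1 * (t.2.1 : L) * (t.2.2 : L)) := by
  rintro ⟨⟨σ, hσ⟩, ⟨a, ha⟩, ⟨z, hzc⟩⟩ ⟨⟨σ', hσ'⟩, ⟨a', ha'⟩, ⟨z', hzc'⟩⟩ h
  have h' : C.R.n σ * a * z = C.R.n σ' * a' * z' := h
  have hp : ∀ z ∈ center L, C.Pm z 1 := by
    intro z hz i
    rw [← mem_center_iff.1 hz (C.R.r i), mul_inv_cancel_right]
    rfl
  have h1 : C.Pm (C.R.n σ * a * z) σ := by
    have := Pm.mul C (Pm.mul C (C.pm_n σ) (C.pm_A ha)) (hp z hzc)
    rwa [mul_one, mul_one] at this
  have h2 : C.Pm (C.R.n σ' * a' * z') σ' := by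
    have := Pm.mul C (Pm.mul C (C.pm_n σ') (C.pm_A ha')) (hp z' hzc')
    rwa [mul_one, mul_one] at this
  rw [h'] at h1
  have h3 : σ = σ' := Pm.unique C h1 h2
  subst h3
  rw [mul_assoc, mul_assoc] at h'
  have h4 : a * z = a' * z' := mul_left_cancel h'
  have h5 : a'⁻¹ * a = z' * z⁻¹ := by
    rw [inv_mul_eq_iff_eq_mul, ← mul_assoc, ← h4, mul_inv_cancel_right]
  have h6 : (a'⁻¹ * a) ^ 3 = 1 := C.A_pow (mul_mem (inv_mem ha') ha)
  have h7 : (a'⁻¹ * a) ^ 4 = 1 := by rw [h5]; exact hz _ (mul_mem hzc' (inv_mem hzc))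
  have h8 : a'⁻¹ * a = 1 := by
    have : (a'⁻¹ * a) ^ 4 = (a'⁻¹ * a) ^ 3 * (a'⁻¹ * a) := pow_succ _ 3
    rw [h6, h7, one_mul] at this
    exact this.symm
  have h9 : a' = a := inv_mul_eq_one.1 h8
  subst h9
  have h10 : z = z' := mul_left_cancel h4
  subst h10
  rfl

theorem pm_nAz {σ : Equiv.Perm (Fin 4)} {a z : L} (ha : a ∈ C.A) (hz : z ∈ center L) : C.Pm (C.R.n σ * a * z) σ := by
  have hp : C.Pm z 1 := by
    intro i
    rw [← mem_center_iff.1 hz (C.R.r i), mul_inv_cancel_right]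
    rfl
  have := Pm.mul C (Pm.mul C (C.pm_n σ) (C.pm_A ha)) hp
  rwa [mul_one, mul_one] at this

include C in
theorem card_ne_zero [Finite K] : Nat.card {v : V // v ≠ 0} = Nat.card K ^ 4 - 1 := by
  classical
  have : Module.Finite K V := Module.Finite.of_basis C.b
  have hV : Finite V := Module.finite_of_finite K
  have hf : finrank K V = 4 := by rw [finrank_eq_card_basis C.b, Fintype.card_fin]
  have h1 := Module.natCard_eq_pow_finrank (K := K) (V := V)
  rw [hf] at h1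
  rw [← h1]
  have := Fintype.ofFinite V
  rw [Nat.card_eq_fintype_card, Nat.card_eq_fintype_card, Fintype.card_subtype_compl, Fintype.card_subtype_eq]

theorem dec5 : ∀ i j : Fin 4, i ≠ j → ∃ σ : Equiv.Perm (Fin 4), σ 0 = i ∧ σ 1 = j := by decide +kernel

theorem line_bound [Finite K] (hL : Nat.card L = Nat.card (center L) * 25920) (hz : ∀ z ∈ center L, z ^ 4 = 1)
    (hcov : ∀ v : V, v ≠ 0 → ∃ (g : L) (j : Fin 4) (x : K), x ≠ 0 ∧ v = C.ρ g (x • C.b j)) :
    (Nat.card K ^ 4 - 1) * 162 ≤ 25920 * (Nat.card K - 1) := by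
  have : Module.Finite K V := Module.Finite.of_basis C.b
  have hV : Finite V := Module.finite_of_finite K
  have hfA : Finite C.A := Nat.finite_of_card_ne_zero (by rw [C.card_A]; norm_num)
  have h1 := C.count_le (T := {σ : Equiv.Perm (Fin 4) // σ 0 = 0} × C.A × center L) _
    (C.inj_nAz hz (fun σ => σ 0 = 0)) {v | ∃ x : K, x ≠ 0 ∧ v = x • C.b 0} (by
      rintro ⟨⟨σ, hσ⟩, ⟨a, ha⟩, ⟨z, hzc⟩⟩ _ ⟨x, hx, rfl⟩
      obtain ⟨y, hy, hy'⟩ := Pm.apply C (C.pm_nAz (σ := σ) ha hzc) 0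
      refine ⟨x * y, mul_ne_zero hx hy, ?_⟩
      show C.ρ (C.R.n σ * a * z) (x • C.b 0) = _
      rw [map_smul, hy', hσ, smul_smul]) (by
      intro v hv
      obtain ⟨g, j, x, hx, hgx⟩ := hcov v hv
      obtain ⟨y, hy, hy'⟩ := Pm.apply C (C.pm_n (Equiv.swap 0 j)) 0
      rw [Equiv.swap_apply_left] at hy'
      refine ⟨g * C.R.n (Equiv.swap 0 j), (x * y⁻¹) • C.b 0, ⟨x * y⁻¹, mul_ne_zero hx (inv_ne_zero hy), rfl⟩, ?_⟩
      rw [map_mul, Module.End.mul_apply, map_smul, hy', smul_smul, mul_assoc, inv_mul_cancel₀ hy, mul_one, hgx])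
  have h2 : Nat.card {v : V | ∃ x : K, x ≠ 0 ∧ v = x • C.b 0} ≤ Nat.card K - 1 := by
    have h3 : Nat.card {x : K // x ≠ 0} = Nat.card K - 1 := by
      classical
      have := Fintype.ofFinite K
      rw [Nat.card_eq_fintype_card, Nat.card_eq_fintype_card, Fintype.card_subtype_compl, Fintype.card_subtype_eq]
    rw [← h3]
    choose x hx hx' using fun v : {v : V | ∃ x : K, x ≠ 0 ∧ v = x • C.b 0} => v.2
    refine Nat.card_le_card_of_injective (fun v => (⟨x v, hx v⟩ : {x : K // x ≠ 0})) ?_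
    intro v v' h
    have h4 : x v = x v' := congrArg Subtype.val h
    exact Subtype.ext (by rw [hx' v, hx' v', h4])
  have h3 : Nat.card {σ : Equiv.Perm (Fin 4) // σ 0 = 0} = 6 := by
    rw [Nat.card_eq_fintype_card]
    decide +kernel
  rw [C.card_ne_zero, Nat.card_prod, Nat.card_prod, h3, C.card_A, hL] at h1
  have hpos : 0 < Nat.card (center L) := Nat.card_pos
  refine Nat.le_of_mul_le_mul_left ?_ hpos
  calc Nat.card (center L) * ((Nat.card K ^ 4 - 1) * 162) = (Nat.card K ^ 4 - 1) * (6 * (27 * Nat.card (center L))) := by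
        ring
    _ ≤ Nat.card (center L) * 25920 * Nat.card {v : V | ∃ x : K, x ≠ 0 ∧ v = x • C.b 0} := h1
    _ ≤ Nat.card (center L) * 25920 * (Nat.card K - 1) := Nat.mul_le_mul_left _ h2
    _ = _ := by ring

theorem plane_bound [Finite K] (hL : Nat.card L = Nat.card (center L) * 25920) (hz : ∀ z ∈ center L, z ^ 4 = 1)
    (hcov : ∀ v : V, v ≠ 0 → ∃ (g : L) (i j : Fin 4), i ≠ j ∧ ∃ c d : K, v = C.ρ g (c • C.b i + d • C.b j)) :
    (Nat.card K ^ 4 - 1) * 108 ≤ 25920 * (Nat.card K ^ 2 - 1) := by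
  have : Module.Finite K V := Module.Finite.of_basis C.b
  have hV : Finite V := Module.finite_of_finite K
  have hfA : Finite C.A := Nat.finite_of_card_ne_zero (by rw [C.card_A]; norm_num)
  have hne : ∀ (c d : K), c • C.b 0 + d • C.b 1 = 0 → c = 0 ∧ d = 0 := by
    intro c d h
    have h1 := congrArg (fun w => C.b.repr w 0) h
    have h2 := congrArg (fun w => C.b.repr w 1) h
    simp at h1 h2
    exact ⟨h1, h2⟩
  have h1 := C.count_le (T := {σ : Equiv.Perm (Fin 4) // (σ 0 = 0 ∧ σ 1 = 1) ∨ (σ 0 = 1 ∧ σ 1 = 0)} × C.A × center L) _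
    (C.inj_nAz hz (fun σ => (σ 0 = 0 ∧ σ 1 = 1) ∨ (σ 0 = 1 ∧ σ 1 = 0)))
    {v | ∃ x : K × K, x ≠ 0 ∧ v = x.1 • C.b 0 + x.2 • C.b 1} (by
      rintro ⟨⟨σ, hσ⟩, ⟨a, ha⟩, ⟨z, hzc⟩⟩ _ ⟨⟨x, x'⟩, hx, rfl⟩
      obtain ⟨y, hy, hy'⟩ := Pm.apply C (C.pm_nAz (σ := σ) ha hzc) 0
      obtain ⟨t, ht, ht'⟩ := Pm.apply C (C.pm_nAz (σ := σ) ha hzc) 1
      have h0 : ¬ (x = 0 ∧ x' = 0) := fun h => hx (Prod.ext h.1 h.2)
      rcases hσ with ⟨h1, h2⟩ | ⟨h1, h2⟩
      · refine ⟨(x * y, x' * t), ?_, ?_⟩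
        · intro h
          exact h0 ⟨(mul_eq_zero.1 (congrArg Prod.fst h)).resolve_right hy,
            (mul_eq_zero.1 (congrArg Prod.snd h)).resolve_right ht⟩
        · show C.ρ (C.R.n σ * a * z) (x • C.b 0 + x' • C.b 1) = _
          rw [map_add, map_smul, map_smul, hy', ht', h1, h2, smul_smul, smul_smul]
      · refine ⟨(x' * t, x * y), ?_, ?_⟩
        · intro h
          exact h0 ⟨(mul_eq_zero.1 (congrArg Prod.snd h)).resolve_right hy,
            (mul_eq_zero.1 (congrArg Prod.fst h)).resolve_right ht⟩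
        · show C.ρ (C.R.n σ * a * z) (x • C.b 0 + x' • C.b 1) = _
          rw [map_add, map_smul, map_smul, hy', ht', h1, h2, smul_smul, smul_smul, add_comm]) (by
      intro v hv
      obtain ⟨g, i, j, hij, c, d, hgx⟩ := hcov v hv
      obtain ⟨σ, hσ0, hσ1⟩ : ∃ σ : Equiv.Perm (Fin 4), σ 0 = i ∧ σ 1 = j := by
        exact dec5 i j hij
      obtain ⟨y, hy, hy'⟩ := Pm.apply C (C.pm_n σ) 0
      obtain ⟨t, ht, ht'⟩ := Pm.apply C (C.pm_n σ) 1
      rw [hσ0] at hy'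
      rw [hσ1] at ht'
      have e : C.ρ (C.R.n σ) ((c * y⁻¹) • C.b 0 + (d * t⁻¹) • C.b 1) = c • C.b i + d • C.b j := by
        rw [map_add, map_smul, map_smul, hy', ht', smul_smul, smul_smul, mul_assoc, mul_assoc, inv_mul_cancel₀ hy,
          inv_mul_cancel₀ ht, mul_one, mul_one]
      refine ⟨g * C.R.n σ, (c * y⁻¹) • C.b 0 + (d * t⁻¹) • C.b 1, ⟨(c * y⁻¹, d * t⁻¹), ?_, rfl⟩, ?_⟩
      · intro h
        apply hv
        have h1 : c * y⁻¹ = 0 := congrArg Prod.fst h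
        have h2 : d * t⁻¹ = 0 := congrArg Prod.snd h
        rw [hgx, ← e, h1, h2, zero_smul, zero_smul, add_zero, map_zero, map_zero]
      · rw [map_mul, Module.End.mul_apply, e, hgx])
  have h2 : Nat.card {v : V | ∃ x : K × K, x ≠ 0 ∧ v = x.1 • C.b 0 + x.2 • C.b 1} ≤ Nat.card K ^ 2 - 1 := by
    have h3 : Nat.card {x : K × K // x ≠ 0} = Nat.card K ^ 2 - 1 := by
      classical
      have := Fintype.ofFinite K
      rw [Nat.card_eq_fintype_card, Fintype.card_subtype_compl, Fintype.card_subtype_eq, Fintype.card_prod,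
        Nat.card_eq_fintype_card, pow_two]
    rw [← h3]
    choose x hx hx' using fun v : {v : V | ∃ x : K × K, x ≠ 0 ∧ v = x.1 • C.b 0 + x.2 • C.b 1} => v.2
    refine Nat.card_le_card_of_injective (fun v => (⟨x v, hx v⟩ : {x : K × K // x ≠ 0})) ?_
    intro v v' h
    have h4 : x v = x v' := congrArg Subtype.val h
    exact Subtype.ext (by rw [hx' v, hx' v', h4])
  have h3 : Nat.card {σ : Equiv.Perm (Fin 4) // (σ 0 = 0 ∧ σ 1 = 1) ∨ (σ 0 = 1 ∧ σ 1 = 0)} = 4 := by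
    rw [Nat.card_eq_fintype_card]
    decide +kernel
  rw [C.card_ne_zero, Nat.card_prod, Nat.card_prod, h3, C.card_A, hL] at h1
  have hpos : 0 < Nat.card (center L) := Nat.card_pos
  refine Nat.le_of_mul_le_mul_left ?_ hpos
  calc Nat.card (center L) * ((Nat.card K ^ 4 - 1) * 108) = (Nat.card K ^ 4 - 1) * (4 * (27 * Nat.card (center L))) := by
        ring
    _ ≤ Nat.card (center L) * 25920 * Nat.card {v : V | ∃ x : K × K, x ≠ 0 ∧ v = x.1 • C.b 0 + x.2 • C.b 1} := h1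
    _ ≤ Nat.card (center L) * 25920 * (Nat.card K ^ 2 - 1) := Nat.mul_le_mul_left _ h2
    _ = _ := by ring

end Cf

/-! ### the ground field has cube roots of unity -/

section root

variable {L : Type*} [Group L] (R : Fr L) {K V : Type*} [Field K] [AddCommGroup V] [Module K V] [FiniteDimensional K V]
  (ρ : L →* Module.End K V)

theorem exists_root (hV : finrank K V = 4) (h3 : (3 : K) ≠ 0) (hne : ρ (R.r 0) ≠ 1) : ∃ ω : K, ω ^ 2 + ω + 1 = 0 := by
  classical
  let K' := AlgebraicClosure K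
  let b0 : Basis (Fin 4) K V := finBasisOfFinrankEq K V hV
  let φ : Module.End K V →* Module.End K' (Fin 4 → K') :=
    ((Matrix.toLinAlgEquiv' (R := K') (n := Fin 4)).toAlgHom.toRingHom.comp
      ((algebraMap K K').mapMatrix.comp (LinearMap.toMatrixAlgEquiv b0).toAlgHom.toRingHom) :
      Module.End K V →+* Module.End K' (Fin 4 → K'))
  have hφinj : Function.Injective φ := by
    intro f g h
    have h1 := (Matrix.toLinAlgEquiv' (R := K') (n := Fin 4)).injective h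
    have h2 : (LinearMap.toMatrixAlgEquiv b0) f = (LinearMap.toMatrixAlgEquiv b0) g := by
      ext i j
      have h3 := congrFun (congrFun h1 i) j
      exact (algebraMap K K').injective h3
    exact (LinearMap.toMatrixAlgEquiv b0).injective h2
  obtain ⟨ω', hω'⟩ : ∃ ω' : K', ω' ^ 2 + ω' + 1 = 0 := by
    obtain ⟨x, hx⟩ := IsAlgClosed.exists_root (Polynomial.X ^ 2 + Polynomial.X + 1 : Polynomial K') (by
      have : (Polynomial.X ^ 2 + Polynomial.X + 1 : Polynomial K').degree = 2 := by compute_degree!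
      rw [this]
      decide)
    refine ⟨x, ?_⟩
    simpa [Polynomial.IsRoot] using hx
  have h3' : (3 : K') ≠ 0 := by
    intro h
    apply h3
    apply (algebraMap K K').injective
    rw [map_zero, map_ofNat]
    exact h
  obtain ⟨b, ζ, hζ, hb⟩ := exists_basis R (φ.comp ρ) (by rw [finrank_fin_fun]) hω' h3' (by
    intro h
    apply hne
    apply hφinj
    rw [map_one]
    exact h)
  -- the trace
  have ht1 : LinearMap.trace K' _ (φ (ρ (R.r 0))) = 1 + 3 * ζ := by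
    rw [LinearMap.trace_eq_matrix_trace K' b, Matrix.trace, Fin.sum_univ_four]
    have h : ∀ j, LinearMap.toMatrix b b (φ (ρ (R.r 0))) j j = if 0 = j then 1 else ζ := by
      intro j
      rw [LinearMap.toMatrix_apply]
      have h5 : φ (ρ (R.r 0)) (b j) = (if 0 = j then (1 : K') else ζ) • b j := hb 0 j
      rw [h5, map_smul, Finsupp.smul_apply, Basis.repr_self, Finsupp.single_eq_same, smul_eq_mul, mul_one]
    simp only [Matrix.diag_apply, h]
    simp
    ring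
  have ht2 : LinearMap.trace K' _ (φ (ρ (R.r 0))) =
      algebraMap K K' (Matrix.trace (LinearMap.toMatrix b0 b0 (ρ (R.r 0)))) := by
    have h : φ (ρ (R.r 0)) = Matrix.toLin' ((LinearMap.toMatrix b0 b0 (ρ (R.r 0))).map (algebraMap K K')) := rfl
    rw [h, Matrix.trace_toLin'_eq, Matrix.trace, Matrix.trace, map_sum]
    rfl
  rw [ht2] at ht1
  refine ⟨(Matrix.trace (LinearMap.toMatrix b0 b0 (ρ (R.r 0))) - 1) / 3, ?_⟩
  apply (algebraMap K K').injective
  rw [map_zero, map_add, map_add, map_pow, map_div₀, map_sub, ht1, map_one, map_ofNat]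
  have e : (1 + 3 * ζ - 1) / 3 = ζ := by
    rw [add_sub_cancel_left, mul_div_cancel_left₀ _ h3']
  rw [e]
  exact hζ

end root

end Cfsg.Agent.H84.HT
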