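import Cfsg.Agent.H84.HT.Rep
import Cfsg.Agent.H578.HT.Frob
import Cfsg.Agent.H337.HT.Basics
import Cfsg.Agent.H912.CrossList
import Cfsg.Agent.S0815
import Cfsg.Agent.S0280

/-!
# S3540, quasisimple rows: `U4(2)` does not occur in dimension 4 (helper84)
-/

set_option autoImplicit false
set_option linter.unusedSectionVars false

universe u w

namespace Cfsg.Agent.H84.HT

theorem card_PSU {F : Type*} [Field F] [Fintype F] (hF : Fintype.card F = 2 ^ 2) : Nat.card (Cfsg.PSU 4 F 2) = 25920 := by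
  have h := S0280.result hF 4 (by norm_num)
  rw [show Nat.gcd 4 (2 + 1) = 1 by norm_num, Finset.prod_range_succ, Finset.prod_range_succ, Finset.prod_range_succ,
    Finset.prod_range_succ, Finset.prod_range_zero, if_pos (by decide), if_neg (by decide), if_pos (by decide),
    if_neg (by decide)] at h
  have h1 : 3 * Nat.card (Cfsg.PSU 4 F 2) = 77760 := by
    rw [one_mul] at h
    exact h
  omega

open Module Subgroup Cfsg.Agent.H337.HT Cfsg.Agent.H578.HT Cfsg.Agent.H828.HT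
open scoped Pointwise

/-! ### arithmetic -/

theorem loop_dec : ∀ k < 34, k ≠ 0 → Nat.gcd (27 * k + 1) 30 = 1 → 27 * k + 1 ≠ 703 →
    2 * (Nat.gcd ((27 * k + 1 - 1) * 51840) ((27 * k + 1) ^ 4 - 1)) ^ 2 < (27 * k + 1) ^ 4 := by decide +kernel

theorem not_cand {q : ℕ} (h1 : q % 27 = 1) (h2 : q.Coprime 30) (h2' : 2 ≤ q) (h3 : q ≠ 703)
    (hc : Cand 1 25920 51840 4 q) : False := by
  have h4 := hc.gcd_le h2' (by norm_num)
  have h5 : q < 906 := by
    have e1 : q ^ 4 - 1 = (q - 1) * ((q + 1) * (q ^ 2 + 1)) := by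
      obtain ⟨t, rfl⟩ : ∃ t, q = t + 1 := ⟨q - 1, by omega⟩
      rw [Nat.add_sub_cancel]
      have : (t + 1) ^ 4 = t * ((t + 1 + 1) * ((t + 1) ^ 2 + 1)) + 1 := by ring
      omega
    rw [e1, Nat.gcd_mul_left] at h4
    have h6 : Nat.gcd 51840 ((q + 1) * (q ^ 2 + 1)) ≤ 640 := by
      have h7 : Nat.Coprime (Nat.gcd 51840 ((q + 1) * (q ^ 2 + 1))) 81 := by
        have h8 : Nat.Coprime ((q + 1) * (q ^ 2 + 1)) 3 := by
          rw [Nat.coprime_comm, Nat.Prime.coprime_iff_not_dvd Nat.prime_three]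
          intro h9
          have h10 := Nat.mod_eq_zero_of_dvd h9
          have h11 : q % 3 = 1 := by omega
          rw [Nat.mul_mod, Nat.add_mod, Nat.add_mod (q ^ 2), Nat.pow_mod, h11] at h10
          norm_num at h10
        exact (Nat.Coprime.pow_right 4 h8).coprime_dvd_left (Nat.gcd_dvd_right _ _)
      have h9 : Nat.gcd 51840 ((q + 1) * (q ^ 2 + 1)) ∣ 640 * 81 := by
        rw [show 640 * 81 = 51840 by norm_num]
        exact Nat.gcd_dvd_left _ _
      exact Nat.le_of_dvd (by norm_num) (h7.dvd_of_dvd_mul_right h9)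
    have h7 : (q - 1) * Nat.gcd 51840 ((q + 1) * (q ^ 2 + 1)) ≤ q * 640 := Nat.mul_le_mul (by omega) h6
    have h8 : q ^ 4 ≤ 2 * (q * 640) ^ 2 := h4.trans (Nat.mul_le_mul_left 2 (Nat.pow_le_pow_left h7 2))
    have h9 : q ^ 2 * q ^ 2 ≤ q ^ 2 * 819200 := by
      calc q ^ 2 * q ^ 2 = q ^ 4 := by ring
        _ ≤ 2 * (q * 640) ^ 2 := h8
        _ = q ^ 2 * 819200 := by ring
    have h10 : q ^ 2 ≤ 819200 := Nat.le_of_mul_le_mul_left h9 (by positivity)
    by_contra hcon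
    have : 906 ^ 2 ≤ q ^ 2 := Nat.pow_le_pow_left (by omega) 2
    omega
  obtain ⟨k, hk⟩ : ∃ k, q = 27 * k + 1 := ⟨q / 27, by omega⟩
  subst hk
  have h6 := loop_dec k (by omega) (by omega) h2 h3
  omega

variable {p : ℕ} [Fact p.Prime] {K : Type w} [Field K] {V : Type u} [AddCommGroup V] [Module (ZMod p) V]
    [Module K V] [Finite V] {G L : Subgroup (V ≃ₗ[ZMod p] V)} {h : ℕ}

/-- elements of `G` of order dividing 27 are products of elements of `L` and scalars -/
theorem inner27 (H : QS p K V G L h) (hS : Nat.card (L ⧸ center L) = 25920)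
    (hA : Nat.card (MulAut (L ⧸ center L)) = 51840) {g : V ≃ₗ[ZMod p] V} (hg : g ∈ G) (h27 : g ^ 27 = 1) :
    ∃ (x : L) (c : K), c ≠ 0 ∧ ∀ v, g v = c • (x : V ≃ₗ[ZMod p] V) v := by
  have hfin : Finite (L ⧸ center L) := Nat.finite_of_card_ne_zero (by rw [hS]; norm_num)
  have hfA : Finite (MulAut (L ⧸ center L)) := Nat.finite_of_card_ne_zero (by rw [hA]; norm_num)
  have hnorm := conj_range_normal (L ⧸ center L)
  have hinj : Function.Injective (MulAut.conj : (L ⧸ center L) →* MulAut (L ⧸ center L)) := by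
    rw [injective_iff_map_eq_one]
    intro x hx
    have h1 : x ∈ center (L ⧸ center L) := by
      rw [mem_center_iff]
      intro y
      have h2 : MulAut.conj x y = y := by rw [hx]; rfl
      rw [MulAut.conj_apply, mul_inv_eq_iff_eq_mul] at h2
      exact h2.symm
    rwa [center_quot H, mem_bot] at h1
  have hi : (MulAut.conj : (L ⧸ center L) →* MulAut (L ⧸ center L)).range.index = 2 := by
    have h1 := (MulAut.conj : (L ⧸ center L) →* MulAut (L ⧸ center L)).range.card_mul_index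
    rw [← Nat.card_congr (MonoidHom.ofInjective hinj).toEquiv, hS, hA] at h1
    omega
  set α : MulAut (L ⧸ center L) := QS.qt (H.cj ⟨g, hg⟩) with hα
  have hα27 : α ^ 27 = 1 := by
    rw [hα, ← map_pow, ← map_pow]
    have : (⟨g, hg⟩ : G) ^ 27 = 1 := Subtype.ext h27
    rw [this, map_one, map_one]
  have hαi : α ∈ (MulAut.conj : (L ⧸ center L) →* MulAut (L ⧸ center L)).range := by
    have h1 := Subgroup.sq_mem_of_index_two hi α
    have h2 : α = (α ^ 2) ^ 14 := by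
      rw [← pow_mul, show 2 * 14 = 27 + 1 by norm_num, pow_succ, hα27, one_mul]
    rw [h2]
    exact pow_mem h1 14
  obtain ⟨s, hs⟩ := hαi
  obtain ⟨x, rfl⟩ := QuotientGroup.mk_surjective s
  have hxG : (x : V ≃ₗ[ZMod p] V) ∈ G := H.le x.2
  have hxc : QS.qt (H.cj ⟨(x : V ≃ₗ[ZMod p] V), hxG⟩) = MulAut.conj (x : L ⧸ center L) := by
    ext y
    obtain ⟨l, rfl⟩ := QuotientGroup.mk_surjective y
    rfl
  have h1 : QS.qt (H.cj ((⟨(x : V ≃ₗ[ZMod p] V), hxG⟩ : G)⁻¹ * ⟨g, hg⟩)) = 1 := by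
    rw [map_mul, map_inv, map_mul, map_inv, hxc, ← hα, ← hs, inv_mul_cancel]
  obtain ⟨c, hc⟩ := H.scalar_of_qt h1
  have hc' : ∀ v, g v = c • (x : V ≃ₗ[ZMod p] V) v := by
    intro v
    have h2 : (x : V ≃ₗ[ZMod p] V) (((x : V ≃ₗ[ZMod p] V)⁻¹ * g) v) = (x : V ≃ₗ[ZMod p] V) (c • v) := congrArg _ (hc v)
    have h3 : (x : V ≃ₗ[ZMod p] V) (((x : V ≃ₗ[ZMod p] V)⁻¹ * g) v) = g v := by
      rw [← LinearEquiv.mul_apply, mul_inv_cancel_left]
    rw [← h3, h2, H.lin _ x.2]
  refine ⟨x, c, ?_, hc'⟩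
  rintro rfl
  obtain ⟨v, hv⟩ := H.exists_ne
  apply hv
  have h4 := hc' v
  rw [zero_smul] at h4
  exact g.map_eq_zero_iff.1 h4

/-- the centre of `L` has exponent dividing 4 -/
theorem center_pow (H : QS p K V G L h) (hn : finrank K V = 4) : ∀ z ∈ center L, z ^ 4 = 1 := by
  intro z hz
  obtain ⟨c, hc⟩ := scal_of_mem_center H hz
  let f : L →* Kˣ := (LinearMap.det.comp (rho H)).toHomUnits
  have h1 : f z = 1 := by
    have h2 : commutator L ≤ f.ker := Abelianization.commutator_subset_ker f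
    rw [H.perf] at h2
    exact h2 (mem_top z)
  have h2 : LinearMap.det (rho H z) = 1 := congrArg Units.val h1
  have h3 : rho H z = c • LinearMap.id := by
    ext v
    exact hc v
  rw [h3, LinearMap.det_smul, hn, LinearMap.det_id, mul_one] at h2
  have h4 : rho H (z ^ 4) = 1 := by
    rw [map_pow, h3]
    ext v
    have h5 : ∀ m : ℕ, ∀ v : V, ((c • (LinearMap.id : V →ₗ[K] V)) ^ m) v = c ^ m • v := by
      intro m
      induction m with
      | zero => intro v; rw [pow_zero, pow_zero, one_smul]; rfl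
      | succ m ih => intro v; rw [pow_succ, Module.End.mul_apply, ih, LinearMap.smul_apply, LinearMap.id_apply,
          smul_smul, pow_succ]
    rw [h5, h2, one_smul]
    rfl
  apply Subtype.ext
  ext v
  exact LinearMap.congr_fun h4 v

theorem rho_inj (H : QS p K V G L h) : Function.Injective (rho H) := by
  intro x y hxy
  apply Subtype.ext
  ext v
  exact LinearMap.congr_fun hxy v

/-- a scalar of order 3 in `G` -/
theorem dvd_of_scalar (H : QS p K V G L h) (hn : finrank K V = 4) {z : V ≃ₗ[ZMod p] V} (hzG : z ∈ G)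
    {c : K} (hc : ∀ v, z v = c • v) (hz3 : z ^ 3 = 1) (hz1 : z ≠ 1) : 3 * Nat.card L ∣ Nat.card G := by
  have h3 : Fact (Nat.Prime 3) := ⟨Nat.prime_three⟩
  have ho : orderOf z = 3 := orderOf_eq_prime hz3 hz1
  have hcomm : ∀ l ∈ L, z * l = l * z := by
    intro l hl
    ext v
    show z (l v) = l (z v)
    rw [hc, hc, H.lin l hl]
  have hzn : zpowers z ≤ normalizer (L : Set (V ≃ₗ[ZMod p] V)) := by
    rw [zpowers_le]
    apply Subgroup.centralizer_le_normalizer
    rw [mem_centralizer_iff]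
    intro l hl
    exact (hcomm l hl).symm
  have h1 := Lib.ProductSet.card_mul_card_inf L (zpowers z)
  have h2 : L ⊓ zpowers z = ⊥ := by
    rw [eq_bot_iff]
    rintro x ⟨hxL, hxz⟩
    rw [mem_bot]
    obtain ⟨k, rfl⟩ := hxz
    have hsc : ∀ k : ℤ, ∀ l ∈ L, z ^ k * l = l * z ^ k := fun k l hl => (Commute.zpow_left (hcomm l hl) k).eq
    have h5 : (⟨z ^ k, hxL⟩ : L) ∈ center L := by
      rw [mem_center_iff]
      intro l
      exact Subtype.ext (hsc k l l.2).symm
    have h6 := center_pow H hn _ h5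
    have h7 : (z ^ k) ^ 4 = 1 := congrArg Subtype.val h6
    have h8 : (z ^ k) ^ 3 = 1 := by rw [← zpow_natCast, ← zpow_mul, mul_comm, zpow_mul, zpow_natCast, hz3, one_zpow]
    rw [pow_succ, h8, one_mul] at h7
    exact h7
  rw [h2, card_bot, mul_one, Nat.card_zpowers, ho] at h1
  have h4 : Nat.card (L ⊔ zpowers z : Subgroup (V ≃ₗ[ZMod p] V)) = 3 * Nat.card L := by
    rw [mul_comm, ← h1, ← Subgroup.coe_mul_of_right_le_normalizer_left L (zpowers z) hzn]
    rfl
  rw [← h4]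
  exact card_dvd_of_le (sup_le H.le (by rw [zpowers_le]; exact hzG))

/-- 3-subgroups of the stabiliser of a vector give 3-subgroups of `L` with this eigenvector -/
theorem exists_X (H : QS p K V G L h) (hS : Nat.card (L ⧸ center L) = 25920)
    (hA : Nat.card (MulAut (L ⧸ center L)) = 51840) (h27 : 27 ∣ h) {v : V} (hv : v ≠ 0) :
    ∃ X : Subgroup L, IsPGroup 3 X ∧ Nat.card X = 27 ∧ ∀ x ∈ X, ∃ c : K, (x : V ≃ₗ[ZMod p] V) v = c • v := by
  have h3 : Fact (Nat.Prime 3) := ⟨Nat.prime_three⟩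
  have hcard := H.half v hv
  obtain ⟨T, hT⟩ := Sylow.exists_subgroup_card_pow_prime 3 (G := MulAction.stabilizer G v) (n := 3)
    (by rw [hcard]; exact h27)
  replace hT : Nat.card T = 27 := by rw [hT]; rfl
  have hTfin : Finite T := inferInstance
  let X : Subgroup L :=
    { carrier := {x | ∃ t : T, ∃ c : K, c ≠ 0 ∧ ∀ w, (x : V ≃ₗ[ZMod p] V) w = c • (((t : MulAction.stabilizer G v) : G) :
        V ≃ₗ[ZMod p] V) w}
      one_mem' := ⟨1, 1, one_ne_zero, fun w => by rw [one_smul]; rfl⟩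
      mul_mem' := by
        rintro x y ⟨t, c, hc, hx⟩ ⟨s, d, hd, hy⟩
        refine ⟨t * s, c * d, mul_ne_zero hc hd, fun w => ?_⟩
        show (x : V ≃ₗ[ZMod p] V) ((y : V ≃ₗ[ZMod p] V) w) = (c * d) •
          (((t : MulAction.stabilizer G v) : G) : V ≃ₗ[ZMod p] V) ((((s : MulAction.stabilizer G v) : G) :
            V ≃ₗ[ZMod p] V) w)
        rw [hy, H.lin _ x.2, hx, smul_smul, mul_comm]
      inv_mem' := by
        rintro x ⟨t, c, hc, hx⟩
        refine ⟨t⁻¹, c⁻¹, inv_ne_zero hc, fun w => ?_⟩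
        show (x : V ≃ₗ[ZMod p] V).symm w = c⁻¹ • (((t : MulAction.stabilizer G v) : G) : V ≃ₗ[ZMod p] V).symm w
        rw [LinearEquiv.symm_apply_eq, H.lin _ x.2, hx, smul_smul, inv_mul_cancel₀ hc, one_smul,
          LinearEquiv.apply_symm_apply] }
  have hmem : ∀ x : L, x ∈ X ↔ ∃ t : T, ∃ c : K, c ≠ 0 ∧ ∀ w, (x : V ≃ₗ[ZMod p] V) w =
    c • (((t : MulAction.stabilizer G v) : G) : V ≃ₗ[ZMod p] V) w := fun x => Iff.rfl
  have hfix : ∀ t : T, (((t : MulAction.stabilizer G v) : G) : V ≃ₗ[ZMod p] V) v = v := fun t =>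
    (t : MulAction.stabilizer G v).2
  have huniq : ∀ (t s : T) (c d : K), (∀ w, c • (((t : MulAction.stabilizer G v) : G) : V ≃ₗ[ZMod p] V) w =
      d • (((s : MulAction.stabilizer G v) : G) : V ≃ₗ[ZMod p] V) w) → c ≠ 0 → t = s := by
    intro t s c d hw hc
    have h1 := hw v
    rw [hfix, hfix] at h1
    have h2 : c = d := smul_left_injective K hv h1
    subst h2
    apply Subtype.ext
    apply Subtype.ext
    apply Subtype.ext
    ext w
    exact smul_right_injective V hc (hw w)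
  choose f c hc hf using fun x : X => (hmem x.1).1 x.2
  let F : X →* T := MonoidHom.mk' f (by
    intro x y
    refine huniq _ _ (c (x * y)) (c x * c y) (fun w => ?_) (hc _)
    rw [← hf (x * y) w]
    show ((x : L) : V ≃ₗ[ZMod p] V) (((y : L) : V ≃ₗ[ZMod p] V) w) = (c x * c y) •
      (((f x : MulAction.stabilizer G v) : G) : V ≃ₗ[ZMod p] V) ((((f y : MulAction.stabilizer G v) : G) :
        V ≃ₗ[ZMod p] V) w)
    rw [hf y, H.lin _ (x : L).2, hf x, smul_smul, mul_comm])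
  have hsurj : Function.Surjective F := by
    intro t
    have ht27 : (((t : MulAction.stabilizer G v) : G) : V ≃ₗ[ZMod p] V) ^ 27 = 1 := by
      have h1 : t ^ Nat.card T = 1 := pow_card_eq_one'
      rw [hT] at h1
      have h2 := congrArg (fun t : T => (((t : MulAction.stabilizer G v) : G) : V ≃ₗ[ZMod p] V)) h1
      exact h2
    obtain ⟨x, d, hd, hx⟩ := inner27 H hS hA (((t : MulAction.stabilizer G v) : G)).2 ht27
    have hxX : x ∈ X := (hmem x).2 ⟨t, d⁻¹, inv_ne_zero hd, fun w => by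
      rw [hx, smul_smul, inv_mul_cancel₀ hd, one_smul]⟩
    refine ⟨⟨x, hxX⟩, ?_⟩
    refine huniq _ _ (c ⟨x, hxX⟩) d⁻¹ (fun w => ?_) (hc _)
    have h1 := hf ⟨x, hxX⟩ w
    show c ⟨x, hxX⟩ • (((f ⟨x, hxX⟩ : MulAction.stabilizer G v) : G) : V ≃ₗ[ZMod p] V) w = _
    rw [← h1, hx, smul_smul, inv_mul_cancel₀ hd, one_smul]
  have hdvd : 3 ^ 3 ∣ Nat.card X := by
    have h1 := Subgroup.card_dvd_of_surjective F hsurj
    rw [hT] at h1
    exact h1
  obtain ⟨Y, hY⟩ := Sylow.exists_subgroup_card_pow_prime 3 (G := X) (n := 3) hdvd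
  refine ⟨Y.map X.subtype, ?_, ?_, ?_⟩
  · exact (IsPGroup.of_card hY).map _
  · rw [Subgroup.card_map_of_injective X.subtype_injective, hY]
    norm_num
  · rintro _ ⟨⟨x, hx⟩, -, rfl⟩
    obtain ⟨t, d, -, hw⟩ := (hmem x).1 hx
    exact ⟨d, by show (x : V ≃ₗ[ZMod p] V) v = _; rw [hw, hfix]⟩

/-- an element of order 3 of `G` fixing `v` lies in `L` if `G` has no scalar of order 3 -/
theorem exists_three (H : QS p K V G L h) (hn : finrank K V = 4) (hS : Nat.card (L ⧸ center L) = 25920)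
    (hA : Nat.card (MulAut (L ⧸ center L)) = 51840) (h3h : 3 ∣ h)
    (hno : ∀ z ∈ G, (∃ c : K, ∀ v, z v = c • v) → z ^ 3 = 1 → z = 1) {v : V} (hv : v ≠ 0) :
    ∃ x : L, x ^ 3 = 1 ∧ x ≠ 1 ∧ (x : V ≃ₗ[ZMod p] V) v = v := by
  have h3 : Fact (Nat.Prime 3) := ⟨Nat.prime_three⟩
  rw [← H.half v hv] at h3h
  obtain ⟨g, hg⟩ := exists_prime_orderOf_dvd_card' 3 h3h
  have hg3 : ((g : G) : V ≃ₗ[ZMod p] V) ^ 3 = 1 := by
    have h1 : g ^ 3 = 1 := by rw [← hg]; exact pow_orderOf_eq_one g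
    exact congrArg (fun t : MulAction.stabilizer G v => ((t : G) : V ≃ₗ[ZMod p] V)) h1
  have hg1 : ((g : G) : V ≃ₗ[ZMod p] V) ≠ 1 := by
    intro h1
    have h2 : g = 1 := Subtype.ext (Subtype.ext h1)
    rw [h2, orderOf_one] at hg
    omega
  set y : V ≃ₗ[ZMod p] V := ((g : G) : V ≃ₗ[ZMod p] V) with hy
  have hyG : y ∈ G := (g : G).2
  have hyv : y v = v := g.2
  obtain ⟨x, c, hc, hx⟩ := inner27 H hS hA hyG (by
    rw [show 27 = 3 * 9 by norm_num, pow_mul, hg3, one_pow])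
  have hxG : (x : V ≃ₗ[ZMod p] V) ∈ G := H.le x.2
  -- the scalar part
  set z : V ≃ₗ[ZMod p] V := (x : V ≃ₗ[ZMod p] V)⁻¹ * y with hz
  have hzc : ∀ v, z v = c • v := by
    intro w
    show (x : V ≃ₗ[ZMod p] V).symm (y w) = c • w
    rw [LinearEquiv.symm_apply_eq, hx, H.lin _ x.2]
  have hcomm : Commute (x : V ≃ₗ[ZMod p] V) z := by
    ext w
    show (x : V ≃ₗ[ZMod p] V) (z w) = z ((x : V ≃ₗ[ZMod p] V) w)
    rw [hzc, hzc, H.lin _ x.2]
  have hyxz : y = x * z := by rw [hz, mul_inv_cancel_left]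
  have hcommy : Commute (x : V ≃ₗ[ZMod p] V) y := by
    rw [hyxz]
    exact (Commute.refl _).mul_right hcomm
  -- `x ^ 12 = 1`
  have hx3 : x ^ 3 ∈ center L := by
    have h1 : (x : V ≃ₗ[ZMod p] V) ^ 3 * z ^ 3 = 1 := by
      rw [← hcomm.mul_pow, ← hyxz, hg3]
    rw [mem_center_iff]
    intro l
    have h2 : (x : V ≃ₗ[ZMod p] V) ^ 3 = (z ^ 3)⁻¹ := eq_inv_of_mul_eq_one_left h1
    have h4 : Commute (l : V ≃ₗ[ZMod p] V) z := by
      ext w
      show (l : V ≃ₗ[ZMod p] V) (z w) = z ((l : V ≃ₗ[ZMod p] V) w)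
      rw [hzc, hzc, H.lin _ l.2]
    have h5 : Commute (l : V ≃ₗ[ZMod p] V) ((x : V ≃ₗ[ZMod p] V) ^ 3) := by
      rw [h2]
      exact (h4.pow_right 3).inv_right
    exact Subtype.ext h5
  have hx12 : x ^ 12 = 1 := by
    rw [show 12 = 3 * 4 by norm_num, pow_mul]
    exact center_pow H hn _ hx3
  have hx12' : (x : V ≃ₗ[ZMod p] V) ^ 12 = 1 := congrArg Subtype.val hx12
  have hz4 : z ^ 4 = 1 := by
    refine hno _ (pow_mem (mul_mem (inv_mem hxG) hyG) 4) ⟨c ^ 4, fun w => ?_⟩ ?_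
    · have h5 : ∀ m : ℕ, ∀ w : V, (z ^ m) w = c ^ m • w := by
        intro m
        induction m with
        | zero => intro w; rw [pow_zero, pow_zero, one_smul]; rfl
        | succ m ih => intro w; rw [pow_succ, LinearEquiv.mul_apply, ih, hzc, smul_smul, pow_succ]
      exact h5 4 w
    · rw [← pow_mul, hz, (hcommy.inv_left).mul_pow, inv_pow, hx12', inv_one, one_mul,
        show 4 * 3 = 3 * 4 by norm_num, pow_mul, hg3, one_pow]
  have hyx : y = (x : V ≃ₗ[ZMod p] V) ^ 4 := by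
    have h1 : y = y ^ 4 := by rw [pow_succ, hg3, one_mul]
    rw [h1, hyxz, hcomm.mul_pow, hz4, mul_one]
  refine ⟨x ^ 4, ?_, ?_, ?_⟩
  · rw [← pow_mul]
    exact hx12
  · intro h1
    apply hg1
    rw [hyx]
    exact congrArg Subtype.val h1
  · show ((x : V ≃ₗ[ZMod p] V) ^ 4) v = v
    rw [← hyx, hyv]

theorem dvd_aux {m h : ℕ} {a b : ℕ} (hab : 3 ^ (a + b) ∣ m * h) (hm : ¬ 3 ^ (a + 1) ∣ m) (hm0 : m ≠ 0) : 3 ^ b ∣ h := by
  obtain ⟨t, m', hm', rfl⟩ := Nat.exists_eq_pow_mul_and_not_dvd hm0 3 (by norm_num)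
  have ht : t ≤ a := by
    by_contra hcon
    exact hm (dvd_mul_of_dvd_left (pow_dvd_pow 3 (by omega)) m')
  have h1 : 3 ^ (t + b) ∣ 3 ^ t * m' * h := (pow_dvd_pow 3 (by omega)).trans hab
  rw [pow_add, mul_assoc] at h1
  have h2 : 3 ^ b ∣ m' * h := Nat.dvd_of_mul_dvd_mul_left (by positivity) h1
  exact (Nat.Coprime.pow_left b ((Nat.coprime_primes Nat.prime_three Nat.prime_three).not.2 (by simp) |> fun _ =>
    (Nat.Prime.coprime_iff_not_dvd Nat.prime_three).2 hm')).dvd_of_dvd_mul_left h2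

/-- **K4c of S3540** -/
theorem kill_four_U42 (H : QS p K V G L h) (hn : finrank K V = 4) (hU : H912.Bd.IsU 4 2 (L ⧸ center L)) : False := by
  have h3 : Fact (Nat.Prime 3) := ⟨Nat.prime_three⟩
  obtain ⟨F, _, _, hF, ⟨e⟩⟩ := hU
  -- orders
  have hP : Nat.card (Cfsg.PSU 4 F 2) = 25920 := card_PSU hF
  have hS : Nat.card (L ⧸ center L) = 25920 := (Nat.card_congr e.toEquiv).trans hP
  have f2 : Fact (Nat.Prime 2) := ⟨Nat.prime_two⟩
  have hA : Nat.card (MulAut (L ⧸ center L)) = 51840 := by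
    rw [Nat.card_congr (MulAut.congr e).toEquiv, S0815.result 2 1 le_rfl (q := 2) (by norm_num) hF 4 (by norm_num)
      (by norm_num), hP, show Nat.gcd 4 (2 + 1) = 1 by norm_num]
  have hL : Nat.card L = Nat.card (center L) * 25920 := by
    rw [← hS, mul_comm, ← Subgroup.card_eq_card_quotient_mul_card_subgroup]
  have hz := center_pow H hn
  have hfK := H.finiteK
  have hfV := H.finiteDim
  have hchar := H.charP
  have hfL : Finite L := inferInstance
  obtain ⟨k, hk, hk0⟩ := H.exists_card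
  have hcop := H.coprime
  rw [hS] at hcop
  have hp : ¬ p ∣ 25920 := by
    intro hd
    rw [hk] at hcop
    have h1 := Nat.Coprime.eq_one_of_dvd (Nat.Coprime.coprime_dvd_left (dvd_pow_self p hk0.ne') hcop) hd
    exact (Fact.out : p.Prime).one_lt.ne' h1
  have h3K : (3 : K) ≠ 0 := by
    intro h1
    have h2 : ((3 : ℕ) : K) = 0 := by exact_mod_cast h1
    rw [CharP.cast_eq_zero_iff K p] at h2
    exact hp (h2.trans (by norm_num))
  -- the frame
  obtain ⟨R0⟩ := exists_frPSU hF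
  let R1 : Fr (L ⧸ center L) := R0.map e.symm.toMonoidHom (by
    intro h1
    apply R0.ne
    exact e.symm.injective (h1.trans (map_one e.symm).symm))
  obtain ⟨R, hR⟩ := R1.lift (QuotientGroup.mk' (center L)) (QuotientGroup.mk'_surjective _) (by
    intro z hz1 g
    exact (mem_center_iff.1 ((QuotientGroup.eq_one_iff z).1 hz1) g).symm) (by
    intro z hz1
    exact hz z ((QuotientGroup.eq_one_iff z).1 hz1))
  have hne : rho H (R.r 0) ≠ 1 := by
    intro h1
    exact R.ne (rho_inj H (h1.trans (map_one _).symm))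
  obtain ⟨ω, hω⟩ := exists_root R (rho H) hn h3K hne
  obtain ⟨b, ζ, hζ, hb⟩ := exists_basis R (rho H) hn hω h3K hne
  let C : Cf L K V := ⟨R, rho H, rho_inj H, b, ζ, hζ, h3K, hb⟩
  -- `3 ∣ q - 1`
  set q := Nat.card K with hq
  have hq3 : q % 3 = 1 := by
    have h1 : (⟨ζ, ζ ^ 2, by linear_combination C.ζ3, by linear_combination C.ζ3⟩ : Kˣ) ^ 3 = 1 := by
      ext
      exact C.ζ3
    have h2 : (⟨ζ, ζ ^ 2, by linear_combination C.ζ3, by linear_combination C.ζ3⟩ : Kˣ) ≠ 1 := by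
      intro h2
      exact C.ζ_ne_one (congrArg Units.val h2)
    have h4 := orderOf_eq_prime h1 h2
    have h5 : 3 ∣ Nat.card Kˣ := h4 ▸ orderOf_dvd_natCard _
    rw [Nat.card_units] at h5
    have h6 := H.two_le_card
    omega
  have hq2 : 2 ≤ q := H.two_le_card
  have hcop2 : q.Coprime 30 := by
    have h1 : q.Coprime 25920 := hcop
    have h2 : (25920 : ℕ) = 30 * 864 := by norm_num
    rw [h2] at h1
    exact h1.coprime_dvd_right (Dvd.intro _ rfl)
  have hodd : q % 2 = 1 := by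
    have h1 : q.Coprime 2 := hcop2.coprime_dvd_right (by norm_num)
    have h2 : ¬ 2 ∣ q := fun h => by
      have := Nat.Coprime.eq_one_of_dvd h1.symm h
      omega
    omega
  have h5q : ¬ 5 ∣ q := fun h => by
    have h1 : q.Coprime 5 := hcop2.coprime_dvd_right (by norm_num)
    have := Nat.Coprime.eq_one_of_dvd h1.symm h
    omega
  -- `27 ∤ q - 1`
  have h27q : q % 27 ≠ 1 := by
    intro h1
    have h2 := H.cand (R := 1) (one_dvd h)
    rw [hS, hA, hn] at h2
    refine not_cand h1 hcop2 hq2 ?_ h2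
    intro h703
    rw [h703] at hk
    have e1 : 19 = p := (Nat.prime_dvd_prime_iff_eq (by norm_num) Fact.out).1
      ((by norm_num : Nat.Prime 19).dvd_of_dvd_pow (hk ▸ (by norm_num : 19 ∣ 703)))
    have e2 : 37 = p := (Nat.prime_dvd_prime_iff_eq (by norm_num) Fact.out).1
      ((by norm_num : Nat.Prime 37).dvd_of_dvd_pow (hk ▸ (by norm_num : 37 ∣ 703)))
    omega
  -- the orbit length
  obtain ⟨m, hm, hm0⟩ := exists_m H.half H.exists_ne
  have hh0 : 0 < h := by have := H.two_le; omega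
  have hmd : m ∣ q ^ 4 - 1 := by
    have h1 := dvd_card_sub_one H.half hh0 hm
    rwa [H.card_V, hn] at h1
  have h81 : 3 ^ 4 ∣ Nat.card L := by
    rw [hL]
    exact Dvd.dvd.mul_left (by norm_num) _
  have hLG := H.card_L_dvd
  -- `9 ∣ m → 9 ∣ q - 1` and so on
  have hfac : q ^ 4 - 1 = (q - 1) * ((q + 1) * (q ^ 2 + 1)) := by
    obtain ⟨t, ht⟩ : ∃ t, q = t + 1 := ⟨q - 1, by omega⟩
    rw [ht, Nat.add_sub_cancel]
    have : (t + 1) ^ 4 = t * ((t + 1 + 1) * ((t + 1) ^ 2 + 1)) + 1 := by ring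
    omega
  have hco : Nat.Coprime ((q + 1) * (q ^ 2 + 1)) 3 := by
    rw [Nat.coprime_comm, Nat.Prime.coprime_iff_not_dvd Nat.prime_three]
    intro h9
    have h10 := Nat.mod_eq_zero_of_dvd h9
    rw [Nat.mul_mod, Nat.add_mod, Nat.add_mod (q ^ 2), Nat.pow_mod, hq3] at h10
    norm_num at h10
  have hm3 : ∀ n : ℕ, 3 ^ n ∣ m → 3 ^ n ∣ q - 1 := by
    intro n h1
    have h2 := h1.trans hmd
    rw [hfac] at h2
    exact (Nat.Coprime.pow_left n hco.symm).dvd_of_dvd_mul_right h2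
  have hm27 : ¬ 3 ^ 3 ∣ m := by
    intro h1
    have h2 := hm3 3 h1
    norm_num at h2
    omega
  by_cases h27 : 27 ∣ h
  · -- case (i)
    have hb := C.line_bound hL hz (by
      intro v hv
      obtain ⟨X, hX1, hX2, hX3⟩ := exists_X H hS hA h27 hv
      exact C.line_of_27 hL hz hX1 hX2.ge hv hX3)
    have h7 : 7 ≤ q := by
      rcases Nat.lt_or_ge q 7 with h1 | h1
      · exfalso
        interval_cases q <;> omega
      · exact h1
    rw [← hq, hfac] at hb
    have hpos : 0 < q - 1 := by omega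
    have h8 : (q + 1) * (q ^ 2 + 1) * 162 ≤ 25920 := by
      refine Nat.le_of_mul_le_mul_left ?_ hpos
      calc (q - 1) * ((q + 1) * (q ^ 2 + 1) * 162) = (q - 1) * ((q + 1) * (q ^ 2 + 1)) * 162 := by ring
        _ ≤ 25920 * (q - 1) := hb
        _ = (q - 1) * 25920 := by ring
    have h9 : (7 + 1) * (7 ^ 2 + 1) ≤ (q + 1) * (q ^ 2 + 1) :=
      Nat.mul_le_mul (by omega) (Nat.add_le_add_right (Nat.pow_le_pow_left h7 2) 1)
    omega
  · -- case (ii)
    have h9m : 3 ^ 2 ∣ m := by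
      by_contra hcon
      apply h27
      exact dvd_aux (a := 1) (b := 3) (m := m) (hm ▸ h81.trans hLG) hcon hm0.ne'
    have h9q := hm3 2 h9m
    norm_num at h9q
    have h3h : 3 ∣ h := by
      have h1 := dvd_aux (a := 2) (b := 2) (m := m) (hm ▸ h81.trans hLG) hm27 hm0.ne'
      exact (by norm_num : 3 ∣ 3 ^ 2).trans h1
    have hno : ∀ z ∈ G, (∃ c : K, ∀ v, z v = c • v) → z ^ 3 = 1 → z = 1 := by
      rintro z hzG ⟨c, hc⟩ hz3
      by_contra hz1
      apply h27
      have h1 := dvd_of_scalar H hn hzG hc hz3 hz1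
      have h2 : 3 ^ (2 + 3) ∣ m * h := by
        rw [hm]
        refine dvd_trans ?_ h1
        rw [show 3 ^ (2 + 3) = 3 * 3 ^ 4 by norm_num]
        exact Nat.mul_dvd_mul_left 3 h81
      exact dvd_aux h2 hm27 hm0.ne'
    have hb := C.plane_bound hL hz (by
      intro v hv
      obtain ⟨x, hx3, hx1, hxv⟩ := exists_three H hn hS hA h3h hno hv
      exact C.plane_of_3 hL hz hx3 hx1 hxv)
    have h19 : 19 ≤ q := by omega
    have hsq : q ^ 2 - 1 = (q - 1) * (q + 1) := by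
      obtain ⟨t, ht⟩ : ∃ t, q = t + 1 := ⟨q - 1, by omega⟩
      rw [ht, Nat.add_sub_cancel]
      have : (t + 1) ^ 2 = t * (t + 1 + 1) + 1 := by ring
      omega
    rw [← hq, hfac, hsq] at hb
    have hpos : 0 < (q - 1) * (q + 1) := Nat.mul_pos (by omega) (by omega)
    have h8 : (q ^ 2 + 1) * 108 ≤ 25920 := by
      refine Nat.le_of_mul_le_mul_left ?_ hpos
      calc (q - 1) * (q + 1) * ((q ^ 2 + 1) * 108) = (q - 1) * ((q + 1) * (q ^ 2 + 1)) * 108 := by ring
        _ ≤ 25920 * ((q - 1) * (q + 1)) := hb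
        _ = (q - 1) * (q + 1) * 25920 := by ring
    have h10 : 19 ^ 2 ≤ q ^ 2 := Nat.pow_le_pow_left h19 2
    omega

end Cfsg.Agent.H84.HT
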